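import Cfsg.Agent.H831.JM.Fm

/-!
# The normalizer of `⟨f⟩` (helper831)
-/

set_option autoImplicit false

open Cfsg

namespace Cfsg.Agent.H831.JM.Cent

open Cfsg.Agent.Lib Cfsg.Agent.Lib.F2Mat Cfsg.Agent.Lib.F2MatGroup
open Cfsg.Agent.J4.Rep112
open Cfsg.Agent.H935.J4Max.ListCl (getG_runG_add)
open Cfsg.Agent.H858 Cfsg.Agent.H858.VK Cfsg.Agent.H858.Data Cfsg.Agent.H858.Elem
open Cfsg.Agent.H831.JM.EnvData Cfsg.Agent.H831.JM.Env Cfsg.Agent.H831.JM.JList
open Cfsg.Agent.H831.JM.Pair Cfsg.Agent.H831.JM.Point Cfsg.Agent.H831.JM.FmJ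

local notation "𝒢" => Cfsg.Spor.J4

/-! ### Entries of the extended environment -/

theorem getG_run_at {G : Type*} [Group G] (ws : List (List ℕ)) (w : List ℕ) (ws' : List (List ℕ)) (L : List G) :
    getG (runG (ws ++ w :: ws') L) ws'.length = evG (runG ws L) w := by
  rw [Cfsg.Agent.H935.J4Max.ListCl.runG_append, runG_cons]
  have := getG_runG_add ws' (evG (runG ws L) w :: runG ws L) 0
  rw [add_zero] at this
  exact this

theorem evG_shift {G : Type*} [Group G] (ws : List (List ℕ)) (w : List ℕ) (L : List G) :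
    evG (runG ws L) (w.map (ws.length + ·)) = evG L w := by
  induction w with
  | nil => rfl
  | cons a w ih => rw [List.map_cons, evG_cons, evG_cons, ih, getG_runG_add]

theorem EY_at (ws : List (List ℕ)) (k : ℕ) (w : List ℕ)
    (h : ws = ws.take k ++ (w.map (k + ·)) :: ws.drop (k + 1)) (hk : k < ws.length) :
    getG (EY ws) (ws.length - 1 - k) = evG LY w := by
  have h1 : (ws.drop (k + 1)).length = ws.length - 1 - k := by rw [List.length_drop]; omega
  have h2 : (ws.take k).length = k := by rw [List.length_take]; omega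
  have key := getG_run_at (ws.take k) (w.map (k + ·)) (ws.drop (k + 1)) LY
  rw [h1, ← h] at key
  have h3 := evG_shift (ws.take k) w LY
  rw [h2] at h3
  exact key.trans h3

theorem EY_at' (ws : List (List ℕ)) (k : ℕ) (w : List ℕ) (m : ℕ)
    (h : ws = ws.take k ++ (w.map (k + ·)) :: ws.drop (k + 1)) (hk : k < ws.length) (hm : ws.length - 1 - k = m) :
    getG (EY ws) m = evG LY w := hm ▸ EY_at ws k w h hk

/-! ### The involution `r²` -/

/-- `r²` -/
noncomputable abbrev R : 𝒢 := e 17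

theorem R_eq : R = r * r := by
  have h := eqY (p := ([17], [32, 32])) (by decide +kernel)
  simp only [evG_cons, evG_nil, mul_one] at h
  rw [← e_r]
  exact h

theorem R_sq : R * R = 1 := by
  have h := eqY (p := ([17, 17], [])) (by decide +kernel)
  simpa only [evG_cons, evG_nil, mul_one] using h

theorem R_inv : R⁻¹ = R := inv_eq_of_mul_eq_one_left R_sq

theorem R_f : R * f * R⁻¹ = f⁻¹ := by
  have h := eqY (p := ([17, 33, 17, 33], [])) (by decide +kernel)
  simp only [evG_cons, evG_nil, mul_one] at h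
  rw [R_inv, eq_inv_iff_mul_eq_one, ← e_f]
  simpa only [mul_assoc] using h

theorem R_J {y : 𝒢} (hy : y ∈ Loc5.J) : R * y = y * R := by
  have h : Loc5.J ≤ Subgroup.centralizer {R} := by
    unfold Loc5.J
    rw [Subgroup.closure_le]
    rintro z (rfl | rfl)
    · have h := eqY (p := ([17, 39], [39, 17])) (by decide +kernel)
      simp only [evG_cons, evG_nil, mul_one] at h
      rw [← e_s]
      exact Subgroup.mem_centralizer_singleton_iff.2 h.symm
    · have h := eqY (p := ([17, 30], [30, 17])) (by decide +kernel)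
      simp only [evG_cons, evG_nil, mul_one] at h
      rw [← e_j]
      exact Subgroup.mem_centralizer_singleton_iff.2 h.symm
  exact (Subgroup.mem_centralizer_singleton_iff.1 (h hy)).symm

theorem J_f {y : 𝒢} (hy : y ∈ Loc5.J) : y * f = f * y := by
  have h := Loc5.J_le_C hy
  rw [Loc5.F5, NormC.centralizer_zpowers] at h
  exact Subgroup.mem_centralizer_singleton_iff.1 h

theorem J_fpow {y : 𝒢} (hy : y ∈ Loc5.J) (n : ℕ) : y * f ^ n = f ^ n * y :=
  (show Commute y f from J_f hy).pow_right n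

/-- the centralizer of `f` -/
theorem cent_f {x : 𝒢} (h : x * f = f * x) : ∃ b < 5, ∃ y ∈ Loc5.J, x = f ^ b * y := by
  classical
  have h1 : x ∈ Subgroup.centralizer (Loc5.F5 : Set 𝒢) := by
    rw [Loc5.F5, NormC.centralizer_zpowers]
    exact Subgroup.mem_centralizer_singleton_iff.2 h
  obtain ⟨-, -, hc, -, h2⟩ := Loc5.directProduct
  rw [← h2] at h1
  have h3 : ∃ a ∈ Loc5.F5, ∃ y ∈ Loc5.J, a * y = x := by
    let K : Subgroup 𝒢 :=
      { carrier := {z | ∃ a ∈ Loc5.F5, ∃ y ∈ Loc5.J, a * y = z}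
        one_mem' := ⟨1, Subgroup.one_mem _, 1, Subgroup.one_mem _, one_mul _⟩
        mul_mem' := by
          rintro _ _ ⟨a, ha, y, hy, rfl⟩ ⟨b, hb, z, hz, rfl⟩
          refine ⟨a * b, Subgroup.mul_mem _ ha hb, y * z, Subgroup.mul_mem _ hy hz, ?_⟩
          calc a * b * (y * z) = a * (b * y) * z := by group
            _ = a * y * (b * z) := by rw [hc b hb y hy]; group
        inv_mem' := by
          rintro _ ⟨a, ha, y, hy, rfl⟩
          refine ⟨a⁻¹, Subgroup.inv_mem _ ha, y⁻¹, Subgroup.inv_mem _ hy, ?_⟩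
          rw [hc a⁻¹ (Subgroup.inv_mem _ ha) y⁻¹ (Subgroup.inv_mem _ hy), mul_inv_rev] }
    have h4 : Loc5.F5 ⊔ Loc5.J ≤ K := sup_le
      (fun a ha => ⟨a, ha, 1, Subgroup.one_mem _, mul_one _⟩) (fun y hy => ⟨1, Subgroup.one_mem _, y, hy, one_mul _⟩)
    exact h4 h1
  obtain ⟨a, ha, y, hy, rfl⟩ := h3
  have hfin : IsOfFinOrder f := isOfFinOrder_of_finite f
  obtain ⟨b, hb, hb'⟩ := Finset.mem_image.1 (mem_zpowers_iff_mem_range_orderOf.1 (show a ∈ Subgroup.zpowers f from ha))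
  rw [orderOf_f, Finset.mem_range] at hb
  exact ⟨b, hb, y, hy, by rw [← hb']⟩

theorem f_pow_eq_one {n : ℕ} (h : f ^ n ∈ Loc5.J) : 5 ∣ n := by
  have h1 : f ^ n ∈ Loc5.F5 ⊓ Loc5.J := ⟨pow_mem (Subgroup.mem_zpowers f) n, h⟩
  rw [Loc5.F5_inf, Subgroup.mem_bot] at h1
  rw [← orderOf_f]
  exact orderOf_dvd_of_pow_eq_one h1

/-- elements of order prime to 5 of the centralizer of `f` -/
theorem mem_J {x : 𝒢} (h : x * f = f * x) {n : ℕ} (hn : x ^ n = 1) (h5 : ¬ 5 ∣ n) : x ∈ Loc5.J := by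
  obtain ⟨b, hb, y, hy, rfl⟩ := cent_f h
  have hc : Commute (f ^ b) y := (J_fpow hy b).symm
  rw [hc.mul_pow, ← pow_mul] at hn
  have h1 : f ^ (b * n) ∈ Loc5.J := by
    rw [mul_eq_one_iff_eq_inv.1 hn]
    exact Subgroup.inv_mem _ (Subgroup.pow_mem _ hy n)
  have h2 := f_pow_eq_one h1
  rcases (Nat.Prime.dvd_mul (by norm_num)).1 h2 with h3 | h3
  · have h4 : b = 0 := by omega
    rw [h4, pow_zero, one_mul]
    exact hy
  · exact absurd h3 h5

theorem R_fpow (a : ℕ) : f ^ a * R = R * (f ^ a)⁻¹ := by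
  have h : R * f ^ a * R⁻¹ = (f ^ a)⁻¹ := by rw [← conj_pow, R_f, inv_pow]
  have h2 : (f ^ a)⁻¹ = R * f ^ a * R := by rw [← h, R_inv]
  rw [h2, ← mul_assoc, ← mul_assoc, R_sq, one_mul]

theorem f_five : f ^ 5 = 1 := f_pow

/-- the involutions inverting `f` -/
theorem inv_f {t' : 𝒢} (ht : t' * t' = 1) (htf : t' * f * t'⁻¹ = f⁻¹) :
    ∃ a < 5, ∃ y ∈ Loc5.J, y * y = 1 ∧ t' = f ^ a * (R * y) * (f ^ a)⁻¹ := by
  have h1 : (R * t') * f = f * (R * t') := by
    have e1 : R * t' * f = R * (t' * f * t'⁻¹) * t' := by group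
    have e2 : R * f⁻¹ = f * R := by
      have := R_f
      have h3 : R * f⁻¹ * R⁻¹ = f := by
        have e3 : R * f⁻¹ * R⁻¹ = (R * f * R⁻¹)⁻¹ := by group
        rw [e3, R_f, inv_inv]
      calc R * f⁻¹ = R * f⁻¹ * R⁻¹ * R := by group
        _ = f * R := by rw [h3]
    rw [e1, htf, e2, mul_assoc]
  obtain ⟨b, hb, y, hy, h2⟩ := cent_f h1
  have h3 : t' = R * (f ^ b * y) := by
    rw [← h2, ← mul_assoc, R_sq, one_mul]
  have hRy := R_J hy
  have h4 : y * y = 1 := by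
    have e1 : t' * t' = R * f ^ b * (y * R) * f ^ b * y := by rw [h3]; group
    have e2 : R * f ^ b * (y * R) * f ^ b * y = R * (f ^ b * R) * (y * f ^ b) * y := by rw [← hRy]; group
    rw [ht, e2, R_fpow, J_fpow hy] at e1
    have e3 : R * (R * (f ^ b)⁻¹) * (f ^ b * y) * y = (R * R) * (y * y) := by group
    rw [e3, R_sq, one_mul] at e1
    exact e1.symm
  have key : ∀ a : ℕ, f ^ a * (R * y) * (f ^ a)⁻¹ = R * ((f ^ a)⁻¹ * (f ^ a)⁻¹ * y) := by
    intro a
    have e1 : y * (f ^ a)⁻¹ = (f ^ a)⁻¹ * y := by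
      have := J_fpow hy a
      rw [eq_inv_mul_iff_mul_eq, ← mul_assoc, ← this, mul_inv_cancel_right]
    calc f ^ a * (R * y) * (f ^ a)⁻¹ = (f ^ a * R) * (y * (f ^ a)⁻¹) := by group
      _ = R * ((f ^ a)⁻¹ * (f ^ a)⁻¹ * y) := by rw [R_fpow, e1]; group
  have h5 : ∃ a < 5, (f ^ a)⁻¹ * (f ^ a)⁻¹ = f ^ b := by
    have h6 : ∀ b < 5, ∃ a < 5, (b + a + a) % 5 = 0 := by decide
    obtain ⟨a, ha, h7⟩ := h6 b hb
    refine ⟨a, ha, ?_⟩
    have h8 : f ^ (b + a + a) = 1 := by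
      rw [← Nat.div_add_mod (b + a + a) 5, h7, add_zero, pow_mul, f_five, one_pow]
    rw [pow_add, pow_add] at h8
    have h9 : f ^ b = (f ^ a)⁻¹ * (f ^ a)⁻¹ := by
      rw [eq_mul_inv_iff_mul_eq, eq_inv_iff_mul_eq_one]
      exact h8
    exact h9.symm
  obtain ⟨a, ha, h6⟩ := h5
  refine ⟨a, ha, y, hy, h4, ?_⟩
  rw [key, h6, h3]

end Cfsg.Agent.H831.JM.Cent
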