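import Cfsg.Agent.H831.JM.EnvData

/-!
# The environment `LY` (helper831)
-/

set_option autoImplicit false

open Cfsg

namespace Cfsg.Agent.H831.JM.Env

open Cfsg.Agent.Lib Cfsg.Agent.Lib.F2Mat Cfsg.Agent.Lib.F2MatGroup
open Cfsg.Agent.J4.Rep112 Cfsg.Agent.J4.LowerData Cfsg.Agent.J4.Lower
open Cfsg.Agent.H858.VK Cfsg.Agent.H858.Data
open Cfsg.Agent.H935.J4Max.ListCl (runG_append)
open Cfsg.Agent.H831.JM.Tree Cfsg.Agent.H831.JM.EnvData

local notation "𝒢" => Cfsg.Spor.J4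

/-- the complete program -/
def slpAll : List (List ℕ) := slpQ ++ slpX ++ slpY

/-- the environment -/
noncomputable def LY : List 𝒢 := runG slpY LX

/-- the elements -/
noncomputable abbrev e (i : ℕ) : 𝒢 := getG LY i

theorem map_LY : LY.map rho = runG slpAll mgens := by
  unfold LY slpAll
  rw [← runG_map, map_LX, runG_append, runG_append, runG_append]

theorem codesY {k : List ℕ → Bool} (h : run 112 slpAll codes k = true) :
    ∃ L', List.Forall₂ (Codes 112) (LY.map rho) L' ∧ k L' = true := by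
  obtain ⟨L', h', hk⟩ := run_sound codes_gens h
  exact ⟨L', by rw [map_LY]; exact h', hk⟩

theorem codes_e {L' : List ℕ} (h : List.Forall₂ (Codes 112) (LY.map rho) L') (i : ℕ) :
    Codes 112 (rho (e i)) (get (F2Mat.one 112) L' i) := by
  have := codes_get h i
  rwa [getG_map] at this

/-! ### Relations -/

/-- equal words -/
def eqsY : List (List ℕ × List ℕ) := [
  ([25, 24], []), ([24, 22, 25], [33]), ([33, 21], [21, 21, 21, 33]), ([33, 18], [18, 18, 18, 33]),
  ([18, 18, 18, 18, 18, 18, 18, 18, 18, 18, 18], []),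
  ([15, 33], [33, 15]), ([15, 18], [18, 18, 18, 18, 18, 18, 18, 18, 18, 18, 15]),
  ([14, 33], [33, 14]), ([14, 21], [21, 21, 21, 21, 21, 21, 21, 21, 21, 21, 14]),
  ([13, 18], [18, 13]), ([13, 13, 13], []), ([16, 16], []), ([16, 21], [21, 16]), ([16, 5], [6, 16]),
  ([16, 3], [4, 16]), ([17, 17], []), ([17, 39], [39, 17]), ([17, 30], [30, 17]), ([17, 33, 17, 33], []),
  ([0, 0], [4]), ([0, 33], [33, 33, 0]), ([39, 33], [33, 39]), ([30, 33], [33, 30]),
  ([21], [24, 23, 25]), ([23], [56, 57, 56, 57, 56, 57, 56, 58, 56, 58, 56, 58]), ([17], [32, 32]),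
  ([16, 33], [33, 16]), ([7], [33, 33, 17, 33, 33, 33]), ([6], [33, 33, 33, 17, 12, 33, 33]),
  ([5], [33, 33, 33, 17, 11, 33, 33]), ([4], [33, 33, 33, 17, 10, 33, 33]), ([3], [33, 33, 33, 17, 9, 33, 33]),
  ([2], [33, 17, 8, 33, 33, 33, 33]), ([0], [33, 33, 33, 32, 1, 33, 33]), ([13, 33], [33, 13]), ([13, 17], [17, 13]),
  ([22], [56, 57, 56, 58, 56, 57, 56, 58, 56, 58, 56, 58, 56, 58, 56, 58, 56, 58, 56, 58, 56, 57, 56, 58, 56, 58,
    56, 57, 56, 57, 56, 57, 56, 58, 56, 58, 56, 57, 56, 58, 56, 58, 56, 58, 56, 58, 56, 58, 56, 57, 56, 58, 56, 57,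
    56])]

/-- different words -/
def neqsY : List (List ℕ × List ℕ) := [([18], []), ([21], []), ([13], []), ([33], [])]

theorem checkY : run 112 slpAll codes (fun L => cond (eqs 112 eqsY L) (neqs 112 neqsY L) false) = true := by
  decide +kernel

theorem soundY : (∀ p ∈ eqsY, evG LY p.1 = evG LY p.2) ∧ ∀ p ∈ neqsY, evG LY p.1 ≠ evG LY p.2 := by
  obtain ⟨L', h', hk⟩ := codesY checkY
  obtain ⟨h1, h2⟩ := condf hk
  refine ⟨fun p hp => ?_, fun p hp h => ?_⟩
  · apply rho_injective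
    rw [← evG_map, ← evG_map]
    exact eqs_sound h' h1 p hp
  · apply neqs_sound (by norm_num) h' h2 p hp
    rw [evG_map, evG_map, h]

end Cfsg.Agent.H831.JM.Env
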