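import Mathlib

/-!
# Systems of generators containing a Frobenius group of order 55 (helper831)

`Tup u f t vs xs`: `⟨u, f⟩` is a Frobenius group of order 55, `t` inverts `f`, `(u t)³ = 1`, the elements of `vs` are
square roots of `t` inducing `f ↦ f²` with `(u v)⁸ = 1`, the elements of `xs` commute with `f` and `t`, have order 2
or 3, and `(u x)¹¹ = 1`; all together they generate the group.
-/

set_option autoImplicit false

namespace Cfsg.Agent.H831.JM

universe v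

structure Tup {X : Type v} [Group X] (u f t : X) (vs xs : Set X) : Prop where
  u11 : u ^ 11 = 1
  u1 : u ≠ 1
  f5 : f ^ 5 = 1
  fu : f * u * f⁻¹ = u ^ 3
  t2 : t * t = 1
  tf : t * f * t⁻¹ = f⁻¹
  ut : (u * t) ^ 3 = 1
  hv : ∀ v ∈ vs, v * f * v⁻¹ = f ^ 2 ∧ v * v = t ∧ (u * v) ^ 8 = 1
  hx : ∀ x ∈ xs, x * f = f * x ∧ x * t = t * x ∧ x ≠ 1 ∧ (x ^ 2 = 1 ∨ x ^ 3 = 1) ∧ (u * x) ^ 11 = 1
  gen : Subgroup.closure ({u, f, t} ∪ vs ∪ xs) = ⊤

end Cfsg.Agent.H831.JM
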