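import Cfsg.Agent.H831.JM.XList
import Cfsg.Agent.H831.JM.NoIn
import Cfsg.Agent.H831.JM.Tup
import Cfsg.Agent.H860.JM.Cj

/-!
# Simple groups containing `11 : 5` and an involution inverting the element of order 5 (helper831)
-/

set_option autoImplicit false

open Cfsg

namespace Cfsg.Agent.H831.JM.Ex

open Cfsg.Agent.Lib Cfsg.Agent.Lib.F2Mat Cfsg.Agent.Lib.F2MatGroup
open Cfsg.Agent.J4.Rep112
open Cfsg.Agent.H858 Cfsg.Agent.H858.VK Cfsg.Agent.H858.Data Cfsg.Agent.H858.Elem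
open Cfsg.Agent.H831.JM.EnvData Cfsg.Agent.H831.JM.Env Cfsg.Agent.H831.JM.JList
open Cfsg.Agent.H831.JM.Pair Cfsg.Agent.H831.JM.Point Cfsg.Agent.H831.JM.FmJ Cfsg.Agent.H831.JM.Cent
open Cfsg.Agent.H831.JM.TList Cfsg.Agent.H831.JM.VList Cfsg.Agent.H831.JM.XList Cfsg.Agent.H831.JM.NoIn
open Cfsg.Agent.H860.JM (NL cj cj_cj mem_cj cj_eq_iff centralizer_cj normalizer_cj)

local notation "𝒢" => Cfsg.Spor.J4

theorem cj_le {g : 𝒢} {A B : Subgroup 𝒢} (h : A ≤ B) : cj g A ≤ cj g B := by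
  intro x hx
  rw [mem_cj] at hx ⊢
  exact h hx

theorem cj_inv (g : 𝒢) (A : Subgroup 𝒢) : cj g⁻¹ (cj g A) = A := by
  rw [cj_cj, inv_mul_cancel, cj_eq_iff]
  exact Subgroup.one_mem _

theorem cj_inv' (g : 𝒢) (A : Subgroup 𝒢) : cj g (cj g⁻¹ A) = A := by
  rw [cj_cj, mul_inv_cancel, cj_eq_iff]
  exact Subgroup.one_mem _

theorem cj_top (g : 𝒢) : cj g (⊤ : Subgroup 𝒢) = ⊤ := by
  rw [eq_top_iff]
  intro x _
  rw [mem_cj]
  exact Subgroup.mem_top _

theorem cj_bot (g : 𝒢) : cj g (⊥ : Subgroup 𝒢) = ⊥ := Subgroup.map_bot _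

theorem NL_cj {M S : Subgroup 𝒢} (g : 𝒢) (h : NL M S) : NL (cj g M) (cj g S) := by
  have e : S ≃* (cj g S : Subgroup 𝒢) := S.equivMapOfInjective _ (MulAut.conj g).injective
  refine ⟨⟨?_, ?_⟩, cj_le h.le, ?_, ?_, ?_, ?_⟩
  · intro h1
    apply h.coatom.1
    rw [← cj_inv g M, h1, cj_top]
  · intro B hB
    have h1 : M < cj g⁻¹ B := by
      refine lt_of_le_of_ne ?_ ?_
      · rw [← cj_inv g M]; exact cj_le hB.le
      · intro h2
        apply hB.ne
        rw [h2, cj_inv']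
    have h2 := h.coatom.2 _ h1
    rw [← cj_inv' g B, h2, cj_top]
  · rw [normalizer_cj]; exact cj_le h.norm
  · have := h.simple
    exact (MulEquiv.isSimpleGroup e.symm)
  · intro h1
    apply h.nab
    exact ⟨⟨fun a b => e.injective (by rw [map_mul, map_mul]; exact h1.is_comm.comm _ _)⟩⟩
  · rw [centralizer_cj, h.cent, cj_bot]

/-- as `Tup`, with orders 7 or 8 allowed -/
structure TupW {X : Type*} [Group X] (u f t : X) (vs xs : Set X) : Prop where
  u11 : u ^ 11 = 1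
  u1 : u ≠ 1
  f5 : f ^ 5 = 1
  fu : f * u * f⁻¹ = u ^ 3
  t2 : t * t = 1
  tf : t * f * t⁻¹ = f⁻¹
  ut : (u * t) ^ 3 = 1
  hv : ∀ v ∈ vs, v * f * v⁻¹ = f ^ 2 ∧ v * v = t ∧ ((u * v) ^ 7 = 1 ∨ (u * v) ^ 8 = 1)
  hx : ∀ x ∈ xs, x * f = f * x ∧ x * t = t * x ∧ x ≠ 1 ∧ (x ^ 2 = 1 ∨ x ^ 3 = 1) ∧ (u * x) ^ 11 = 1
  gen : Subgroup.closure ({u, f, t} ∪ vs ∪ xs) = ⊤

theorem yA_f : yA * f = f * yA := by
  have h := eqY (p := ([13, 33], [33, 13])) (by decide +kernel)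
  simp only [evG_cons, evG_nil, mul_one] at h
  rw [← e_f]
  exact h

theorem yA_R : yA * R = R * yA := by
  have h := eqY (p := ([13, 17], [17, 13])) (by decide +kernel)
  simpa only [evG_cons, evG_nil, mul_one] using h

theorem yA_T : yA * e 7 = e 7 * yA := by
  have h1 : yA * f ^ 2 = f ^ 2 * yA := (show Commute yA f from yA_f).pow_right 2
  have h3 : (f ^ 2)⁻¹ * yA = yA * (f ^ 2)⁻¹ := by
    rw [inv_mul_eq_iff_eq_mul, ← mul_assoc, ← h1, mul_inv_cancel_right]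
  rw [T0_eq, mul_one]
  calc yA * (f ^ 2 * R * (f ^ 2)⁻¹) = yA * f ^ 2 * R * (f ^ 2)⁻¹ := by group
    _ = f ^ 2 * (yA * R) * (f ^ 2)⁻¹ := by rw [h1]; group
    _ = f ^ 2 * R * (yA * (f ^ 2)⁻¹) := by rw [yA_R]; group
    _ = f ^ 2 * R * (f ^ 2)⁻¹ * yA := by rw [← h3]; group

/-- **the dichotomy** -/
theorem dich {X : Type*} [Group X] {u₀ f₀ t₀ : X} {vs xs : Set X} (h : TupW u₀ f₀ t₀ vs xs)
    {M S : Subgroup 𝒢} (hM : NL M S) (φ : X →* 𝒢) (hφ : Function.Injective φ) (hS : φ.range = S) :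
    ∃ g : 𝒢, g * φ u₀ * g⁻¹ = uB ∧ g * φ f₀ * g⁻¹ = f ∧ ∃ v ∈ vs, g * φ v * g⁻¹ = e 0 := by
  obtain ⟨g, hg, hc⟩ := triple (u' := φ u₀) (f' := φ f₀) (t' := φ t₀)
    (by rw [← map_pow, h.u11, map_one]) (fun h1 => h.u1 (hφ (by rw [h1, map_one])))
    (by rw [← map_pow, h.f5, map_one])
    (by rw [← map_mul, ← map_inv, ← map_mul, h.fu, map_pow])
    (by rw [← map_mul, h.t2, map_one])
    (by rw [← map_mul, ← map_inv, ← map_mul, h.tf, map_inv])
    (by rw [← map_mul, ← map_pow, h.ut, map_one])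
  let ψ : X →* 𝒢 := (MulAut.conj g).toMonoidHom.comp φ
  have hψ : ∀ x, ψ x = g * φ x * g⁻¹ := fun x => rfl
  have hinj : Function.Injective ψ := (MulAut.conj g).injective.comp hφ
  have hN := NL_cj g hM
  have hr : ψ.range = cj g S := by
    rw [← hS]
    exact MonoidHom.range_comp _ _
  have hgen : ∀ K : Subgroup 𝒢, (∀ x ∈ ({u₀, f₀, t₀} ∪ vs ∪ xs : Set X), ψ x ∈ K) → cj g S ≤ K := by
    intro K hK
    rw [← hr, MonoidHom.range_eq_map, ← h.gen, MonoidHom.map_closure, Subgroup.closure_le]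
    rintro _ ⟨x, hx, rfl⟩
    exact hK x hx
  have kv : ∀ v ∈ vs, ψ v * f * (ψ v)⁻¹ = f ^ 2 ∧ ψ v * ψ v = ψ t₀ ∧ ((ψ u₀ * ψ v) ^ 7 = 1 ∨ (ψ u₀ * ψ v) ^ 8 = 1) := by
    intro v hv
    obtain ⟨k1, k2, k3⟩ := h.hv v hv
    refine ⟨?_, ?_, ?_⟩
    · rw [← hg, ← hψ, ← map_mul, ← map_inv, ← map_mul, k1, map_pow]
    · rw [← map_mul, k2]
    · rcases k3 with k3 | k3
      · left; rw [← map_mul, ← map_pow, k3, map_one]
      · right; rw [← map_mul, ← map_pow, k3, map_one]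
  have kx : ∀ x ∈ xs, ψ x * f = f * ψ x ∧ ψ x * ψ t₀ = ψ t₀ * ψ x ∧ ψ x ≠ 1 ∧ (ψ x ^ 2 = 1 ∨ ψ x ^ 3 = 1) ∧
      (ψ u₀ * ψ x) ^ 11 = 1 := by
    intro x hx
    obtain ⟨k1, k2, k3, k4, k5⟩ := h.hx x hx
    refine ⟨?_, ?_, ?_, ?_, ?_⟩
    · rw [← hg, ← hψ, ← map_mul, ← map_mul, k1]
    · rw [← map_mul, ← map_mul, k2]
    · exact fun h1 => k3 (hinj (by rw [h1, map_one]))
    · rcases k4 with k4 | k4
      · left; rw [← map_pow, k4, map_one]
      · right; rw [← map_pow, k4, map_one]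
    · rw [← map_mul, ← map_pow, k5, map_one]
  rcases hc with ⟨hu, ht⟩ | ⟨hu, ht⟩
  · exfalso
    have h1 : cj g S ≤ Subgroup.centralizer {yA} := by
      apply hgen
      rintro x (((rfl | rfl | rfl) | hx) | hx)
      · rw [hψ, hu]; exact Subgroup.mem_centralizer_singleton_iff.2 yA_uA.symm
      · rw [hψ, hg]; exact Subgroup.mem_centralizer_singleton_iff.2 yA_f.symm
      · rw [hψ, ht]; exact Subgroup.mem_centralizer_singleton_iff.2 yA_T.symm
      · exfalso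
        obtain ⟨k1, k2, k3⟩ := kv x hx
        rw [hψ t₀, ht] at k2
        obtain ⟨n7, n8⟩ := vA k1 k2
        rw [hψ u₀, hu] at k3
        rcases k3 with k3 | k3
        · exact n7 k3
        · exact n8 k3
      · exfalso
        obtain ⟨k1, k2, k3, k4, k5⟩ := kx x hx
        rw [hψ u₀, hu] at k5
        exact (x_list k1 k3 k4).1 k5
    have h2 : yA ∈ Subgroup.centralizer (cj g S : Set 𝒢) := by
      rw [Subgroup.mem_centralizer_iff]
      intro y hy
      exact Subgroup.mem_centralizer_singleton_iff.1 (h1 hy)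
    rw [hN.cent, Subgroup.mem_bot] at h2
    exact yA_ne h2
  · refine ⟨g, hu, hg, ?_⟩
    by_contra hne
    push Not at hne
    have htB : ψ t₀ ∈ MB := by
      rw [hψ]
      rcases ht with ht | ht | ht
      · rw [ht]; exact const_all.2.2.1
      · rw [ht]; exact const_all.2.2.2.1
      · rw [ht]; exact const_all.2.2.2.2.1
    have h1 : cj g S ≤ MB := by
      apply hgen
      rintro x (((rfl | rfl | rfl) | hx) | hx)
      · rw [hψ, hu]; exact uB_MB
      · rw [hψ, hg]; exact f_MB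
      · exact htB
      · obtain ⟨k1, k2, k3⟩ := kv x hx
        have hne' : ψ x ≠ e 0 := hne x hx
        rw [hψ t₀] at k2
        rw [hψ u₀, hu] at k3
        rcases ht with ht | ht | ht
        · rw [ht] at k2
          rcases v1 k1 k2 with k | ⟨n7, n8⟩
          · exact k
          · exact absurd k3 (by tauto)
        · rw [ht] at k2
          rcases v3 k1 k2 with k | k | ⟨n7, n8⟩
          · exact k
          · exact absurd k hne'
          · exact absurd k3 (by tauto)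
        · rw [ht] at k2
          rcases v5 k1 k2 with k | ⟨n7, n8⟩
          · exact k
          · exact absurd k3 (by tauto)
      · obtain ⟨k1, k2, k3, k4, k5⟩ := kx x hx
        rw [hψ u₀, hu] at k5
        rw [hψ t₀] at k2
        refine (x_list k1 k3 k4).2 k5 ?_
        rcases ht with ht | ht | ht
        · left; rw [← ht]; exact k2
        · right; left; rw [← ht]; exact k2
        · right; right; rw [← ht]; exact k2
    refine no_in_MB hN ?_ ?_ h1
    · rw [← hu, ← hψ, ← hr]; exact ⟨u₀, rfl⟩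
    · rw [← hg, ← hψ, ← hr]; exact ⟨f₀, rfl⟩

end Cfsg.Agent.H831.JM.Ex

namespace Cfsg.Agent.H831.JM

open Cfsg.Agent.H831.JM.Ex

/-- **exclusion of groups with such a system of generators** -/
theorem excl_of_tup {X : Type} [Group X] {u f t : X} {vs xs : Set X} (h : Tup u f t vs xs) :
    Cfsg.Agent.H860.JM.Excl X := by
  rintro M S hM ⟨e⟩
  have hw : TupW u f t vs xs := ⟨h.u11, h.u1, h.f5, h.fu, h.t2, h.tf, h.ut,
    fun v hv => ⟨(h.hv v hv).1, (h.hv v hv).2.1, Or.inr (h.hv v hv).2.2⟩, h.hx, h.gen⟩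
  obtain ⟨g, hu, hf, v, hv, hgv⟩ := dich hw hM (S.subtype.comp e.symm.toMonoidHom)
    (S.subtype_injective.comp e.symm.injective) (by
      rw [MonoidHom.range_comp, MonoidHom.range_eq_top_of_surjective _ e.symm.surjective, ← MonoidHom.range_eq_map,
        Subgroup.range_subtype])
  have h8 := (h.hv v hv).2.2
  apply VList.VS8
  rw [← hu, ← hgv]
  have e1 : g * (S.subtype.comp e.symm.toMonoidHom) u * g⁻¹ * (g * (S.subtype.comp e.symm.toMonoidHom) v * g⁻¹) =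
      g * (S.subtype.comp e.symm.toMonoidHom) (u * v) * g⁻¹ := by rw [map_mul]; group
  rw [e1, conj_pow, ← map_pow, h8, map_one]
  group

end Cfsg.Agent.H831.JM
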