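import Cfsg.Agent.H831.JM.NoIn

/-!
# Formulas checked for all elements of `J` by the kernel (helper831)
-/

set_option autoImplicit false
set_option Elab.async false

open Cfsg

namespace Cfsg.Agent.H831.JM.FmJ

open Cfsg.Agent.Lib Cfsg.Agent.Lib.F2Mat Cfsg.Agent.Lib.F2MatGroup
open Cfsg.Agent.J4.Rep112
open Cfsg.Agent.H935.J4Max.ListCl (getG_runG_add)
open Cfsg.Agent.H858 Cfsg.Agent.H858.VK Cfsg.Agent.H858.Data Cfsg.Agent.H858.Elem
open Cfsg.Agent.H831.JM.Tree Cfsg.Agent.H831.JM.EnvData Cfsg.Agent.H831.JM.Env Cfsg.Agent.H831.JM.JList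
open Cfsg.Agent.H831.JM.Pair Cfsg.Agent.H831.JM.Point

local notation "𝒢" => Cfsg.Spor.J4

/-- formulas about the elements of a list -/
inductive Fm : Type
  | eq : List ℕ → List ℕ → Fm
  | ne : List ℕ → List ℕ → Fm
  | vec : ℕ → List ℕ → Fm
  | and : Fm → Fm → Fm
  | or : Fm → Fm → Fm
  | bind : List ℕ → Fm → Fm

/-- evaluation on packed matrices -/
noncomputable def evB (φ : Fm) : List ℕ → Bool :=
  Fm.rec (motive := fun _ => List ℕ → Bool)
    (fun w v L => Nat.beq (evW 112 L w) (evW 112 L v))
    (fun w v L => cond (Nat.beq (evW 112 L w) (evW 112 L v)) false true)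
    (fun u w L => force (evW 112 L w) fun M => Nat.beq (F2Mat.vmul 112 u M) u)
    (fun _ _ ih1 ih2 L => cond (ih1 L) (ih2 L) false)
    (fun _ _ ih1 ih2 L => cond (ih1 L) true (ih2 L))
    (fun w _ ih L => force (evW 112 L w) fun M => ih (M :: L)) φ

/-- the meaning -/
def Mean : Fm → List 𝒢 → Prop
  | .eq w v, L => evG L w = evG L v
  | .ne w v, L => evG L w ≠ evG L v
  | .vec u w, L => evG L w ∈ Stv u
  | .and a b, L => Mean a L ∧ Mean b L
  | .or a b, L => Mean a L ∨ Mean b L
  | .bind w a, L => Mean a (evG L w :: L)

theorem evG_rho (L : List 𝒢) (w : List ℕ) : evG (L.map rho) w = rho (evG L w) := evG_map rho L w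

theorem sound_fm {φ : Fm} {L : List 𝒢} {L' : List ℕ} (h : List.Forall₂ (Codes 112) (L.map rho) L')
    (hb : evB φ L' = true) : Mean φ L := by
  induction φ generalizing L L' with
  | eq w v =>
    have hb' : Nat.beq (evW 112 L' w) (evW 112 L' v) = true := hb
    show evG L w = evG L v
    apply rho_injective
    rw [← evG_rho, ← evG_rho]
    exact (codes_evW h w).eq (codes_evW h v) hb'
  | ne w v =>
    have hb' : cond (Nat.beq (evW 112 L' w) (evW 112 L' v)) false true = true := hb
    show evG L w ≠ evG L v
    intro he
    have h1 : Codes 112 (rho (evG L w)) (evW 112 L' w) := by rw [← evG_rho]; exact codes_evW h w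
    have h2 : Codes 112 (rho (evG L v)) (evW 112 L' v) := by rw [← evG_rho]; exact codes_evW h v
    unfold Codes at h1 h2
    rw [he, h2] at h1
    have h3 := toMat_inj (evW_lt (by norm_num) L' v) (evW_lt (by norm_num) L' w) h1
    rw [h3, Nat.beq_refl] at hb'
    exact absurd hb' (by decide)
  | vec u w =>
    have h1 : Codes 112 (rho (evG L w)) (evW 112 L' w) := by rw [← evG_rho]; exact codes_evW h w
    have hb' : force (evW 112 L' w) (fun M => Nat.beq (F2Mat.vmul 112 u M) u) = true := hb
    show evG L w ∈ Stv u
    generalize evW 112 L' w = M at h1 hb'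
    rw [force_eq] at hb'
    rw [mem_Stv]
    unfold vv
    unfold Codes at h1
    rw [h1, ← toVec_vmul, Nat.eq_of_beq_eq_true hb']
  | and a b ih1 ih2 =>
    have hb' : cond (evB a L') (evB b L') false = true := hb
    obtain ⟨h1, h2⟩ := condf hb'
    exact ⟨ih1 h h1, ih2 h h2⟩
  | or a b ih1 ih2 =>
    have hb' : cond (evB a L') true (evB b L') = true := hb
    show Mean a L ∨ Mean b L
    rcases h1 : evB a L' with _ | _
    · rw [h1] at hb'
      exact Or.inr (ih2 h hb')
    · exact Or.inl (ih1 h h1)
  | bind w a ih =>
    have hb' : force (evW 112 L' w) (fun M => evB a (M :: L')) = true := hb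
    have h1 : Codes 112 (rho (evG L w)) (evW 112 L' w) := by rw [← evG_rho]; exact codes_evW h w
    show Mean a (evG L w :: L)
    generalize evW 112 L' w = M at h1 hb'
    rw [force_eq] at hb'
    refine ih ?_ hb'
    rw [List.map_cons]
    exact List.Forall₂.cons h1 h

/-- the check for all elements of `J` -/
noncomputable def chkJ (ws : List (List ℕ)) (φ : Fm) : Bool :=
  run 112 (slpAll ++ ws) codes fun L => force (get (F2Mat.one 112) L (ws.length + 39)) fun A =>
    force (get (F2Mat.one 112) L (ws.length + 30)) fun B => allB A B (fun X => evB φ (X :: L)) tJ (F2Mat.one 112)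

/-- the extended environment -/
noncomputable def EY (ws : List (List ℕ)) : List 𝒢 := runG ws LY

theorem EY_shift (ws : List (List ℕ)) (i : ℕ) : getG (EY ws) (ws.length + i) = e i := getG_runG_add ws LY i

theorem all_J {ws : List (List ℕ)} {φ : Fm} (h : chkJ ws φ = true) : ∀ x ∈ Loc5.J, Mean φ (x :: EY ws) := by
  unfold chkJ at h
  obtain ⟨L', h', hk⟩ := run_sound codes_gens h
  have h2 : List.Forall₂ (Codes 112) ((EY ws).map rho) L' := by
    unfold EY
    rw [← runG_map, map_LY, ← Cfsg.Agent.H935.J4Max.ListCl.runG_append]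
    exact h'
  have hc : ∀ i, Codes 112 (rho (e i)) (get (F2Mat.one 112) L' (ws.length + i)) := by
    intro i
    have := codes_get h2 (ws.length + i)
    rwa [getG_map, EY_shift] at this
  have hs := hc 39
  have hj := hc 30
  rw [e_s] at hs
  rw [e_j] at hj
  generalize get (F2Mat.one 112) L' (ws.length + 39) = A at hk hs
  generalize get (F2Mat.one 112) L' (ws.length + 30) = B at hk hj
  rw [force_eq, force_eq] at hk
  intro x hx
  obtain ⟨X, hX, ht⟩ := allB_sound hs hj (g := 1) (by rw [map_one]; exact Codes.one 112) hk x (mem_list x hx)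
  refine sound_fm ?_ ht
  rw [List.map_cons]
  exact List.Forall₂.cons hX h2

end Cfsg.Agent.H831.JM.FmJ

/-!
# Splitting the checks of the elements of `J` (helper831)
-/


open Cfsg

namespace Cfsg.Agent.H831.JM.Split

open Cfsg.Agent.Lib Cfsg.Agent.Lib.F2Mat Cfsg.Agent.Lib.F2MatGroup
open Cfsg.Agent.J4.Rep112
open Cfsg.Agent.H935.J4Max.ListCl (getG_runG_add)
open Cfsg.Agent.H858 Cfsg.Agent.H858.VK Cfsg.Agent.H858.Data Cfsg.Agent.H858.Elem
open Cfsg.Agent.H831.JM.Tree Cfsg.Agent.H831.JM.EnvData Cfsg.Agent.H831.JM.Env Cfsg.Agent.H831.JM.JList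
open Cfsg.Agent.H831.JM.FmJ

local notation "𝒢" => Cfsg.Spor.J4

/-- the tree above the depth `d` -/
def top (d : ℕ) (T : BT) : BT :=
  match d, T with
  | 0, _ => .o
  | _ + 1, .o => .o
  | 1, _ => .o
  | d + 2, .l T => .l (top (d + 1) T)
  | d + 2, .r T => .r (top (d + 1) T)
  | d + 2, .b T U => .b (top (d + 1) T) (top (d + 1) U)

/-- the elements of the subtree with path `p` (`false` = left) -/
def subV {G : Type*} [Group G] (a b : G) : List Bool → BT → G → List G
  | [], T, g => visit a b T g
  | _ :: _, .o, _ => []
  | false :: p, .l T, g => subV a b p T (g * a)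
  | true :: _, .l _, _ => []
  | false :: _, .r _, _ => []
  | true :: p, .r T, g => subV a b p T (g * b)
  | false :: p, .b T _, g => subV a b p T (g * a)
  | true :: p, .b _ U, g => subV a b p U (g * b)

theorem mem_sub {G : Type*} [Group G] {a b : G} (d : ℕ) {T : BT} {g x : G} (hx : x ∈ visit a b T g) :
    x ∈ visit a b (top (d + 1) T) g ∨ ∃ p : List Bool, p.length = d + 1 ∧ x ∈ subV a b p T g := by
  induction d generalizing T g with
  | zero =>
    cases T with
    | o => exact Or.inl hx
    | l T =>
      rw [visit, List.mem_cons] at hx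
      rcases hx with rfl | hx
      · exact Or.inl (by show x ∈ [x]; simp)
      · exact Or.inr ⟨[false], rfl, hx⟩
    | r T =>
      rw [visit, List.mem_cons] at hx
      rcases hx with rfl | hx
      · exact Or.inl (by show x ∈ [x]; simp)
      · exact Or.inr ⟨[true], rfl, hx⟩
    | b T U =>
      rw [visit, List.mem_cons, List.mem_append] at hx
      rcases hx with rfl | hx | hx
      · exact Or.inl (by show x ∈ [x]; simp)
      · exact Or.inr ⟨[false], rfl, hx⟩
      · exact Or.inr ⟨[true], rfl, hx⟩
  | succ d ih =>
    cases T with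
    | o => exact Or.inl hx
    | l T =>
      rw [visit, List.mem_cons] at hx
      rcases hx with rfl | hx
      · exact Or.inl (by show x ∈ x :: _; simp)
      · rcases ih hx with h | ⟨p, hp, h⟩
        · exact Or.inl (List.mem_cons_of_mem _ h)
        · exact Or.inr ⟨false :: p, by rw [List.length_cons, hp], h⟩
    | r T =>
      rw [visit, List.mem_cons] at hx
      rcases hx with rfl | hx
      · exact Or.inl (by show x ∈ x :: _; simp)
      · rcases ih hx with h | ⟨p, hp, h⟩
        · exact Or.inl (List.mem_cons_of_mem _ h)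
        · exact Or.inr ⟨true :: p, by rw [List.length_cons, hp], h⟩
    | b T U =>
      rw [visit, List.mem_cons, List.mem_append] at hx
      rcases hx with rfl | hx | hx
      · exact Or.inl (by show x ∈ x :: _; simp)
      · rcases ih hx with h | ⟨p, hp, h⟩
        · exact Or.inl (List.mem_cons_of_mem _ (List.mem_append_left _ h))
        · exact Or.inr ⟨false :: p, by rw [List.length_cons, hp], h⟩
      · rcases ih hx with h | ⟨p, hp, h⟩
        · exact Or.inl (List.mem_cons_of_mem _ (List.mem_append_right _ h))
        · exact Or.inr ⟨true :: p, by rw [List.length_cons, hp], h⟩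

/-- walk to the subtree with path `p` and check it -/
noncomputable def subB (A B : ℕ) (test : ℕ → Bool) (p : List Bool) : BT → ℕ → Bool :=
  List.rec (motive := fun _ => BT → ℕ → Bool) (fun T M => allB A B test T M)
    (fun c _ ih T M => BT.rec (motive := fun _ => Bool) true
      (fun U _ => cond c true (force (F2Mat.mul 112 M A) (ih U)))
      (fun U _ => cond c (force (F2Mat.mul 112 M B) (ih U)) true)
      (fun U V _ _ => cond c (force (F2Mat.mul 112 M B) (ih V)) (force (F2Mat.mul 112 M A) (ih U))) T) p

theorem subB_sound {a b : 𝒢} {A B : ℕ} (ha : Codes 112 (rho a) A) (hb : Codes 112 (rho b) B)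
    {test : ℕ → Bool} {p : List Bool} {T : BT} {g : 𝒢} {M : ℕ} (hg : Codes 112 (rho g) M)
    (h : subB A B test p T M = true) : ∀ x ∈ subV a b p T g, ∃ X, Codes 112 (rho x) X ∧ test X = true := by
  induction p generalizing T g M with
  | nil => exact allB_sound ha hb hg h
  | cons c p ih =>
    cases T with
    | o => intro x hx; cases c <;> exact absurd hx (by simp [subV])
    | l T =>
      cases c with
      | false =>
        change force (F2Mat.mul 112 M A) (subB A B test p T) = true at h
        rw [force_eq] at h
        exact ih (g := g * a) (by rw [map_mul]; exact hg.mul ha) h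
      | true => intro x hx; exact absurd hx (by simp [subV])
    | r T =>
      cases c with
      | false => intro x hx; exact absurd hx (by simp [subV])
      | true =>
        change force (F2Mat.mul 112 M B) (subB A B test p T) = true at h
        rw [force_eq] at h
        exact ih (g := g * b) (by rw [map_mul]; exact hg.mul hb) h
    | b T U =>
      cases c with
      | false =>
        change force (F2Mat.mul 112 M A) (subB A B test p T) = true at h
        rw [force_eq] at h
        exact ih (g := g * a) (by rw [map_mul]; exact hg.mul ha) h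
      | true =>
        change force (F2Mat.mul 112 M B) (subB A B test p U) = true at h
        rw [force_eq] at h
        exact ih (g := g * b) (by rw [map_mul]; exact hg.mul hb) h

/-- the check of the top -/
noncomputable def chkTop (ws : List (List ℕ)) (φ : Fm) : Bool :=
  run 112 (slpAll ++ ws) codes fun L => force (get (F2Mat.one 112) L (ws.length + 39)) fun A =>
    force (get (F2Mat.one 112) L (ws.length + 30)) fun B =>
      allB A B (fun X => evB φ (X :: L)) (top 3 tJ) (F2Mat.one 112)

/-- all entries of a list of paths -/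
noncomputable def allP (f : List Bool → Bool) (ps : List (List Bool)) : Bool :=
  List.rec (motive := fun _ => Bool) true (fun p _ ih => cond (f p) ih false) ps

/-- the check of some subtrees -/
noncomputable def chkSub (ws : List (List ℕ)) (φ : Fm) (ps : List (List Bool)) : Bool :=
  run 112 (slpAll ++ ws) codes fun L => force (get (F2Mat.one 112) L (ws.length + 39)) fun A =>
    force (get (F2Mat.one 112) L (ws.length + 30)) fun B =>
      allP (fun p => subB A B (fun X => evB φ (X :: L)) p tJ (F2Mat.one 112)) ps

theorem allP_mem {f : List Bool → Bool} {ps : List (List Bool)} (h : allP f ps = true) : ∀ p ∈ ps, f p = true := by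
  induction ps with
  | nil => intro p hp; exact absurd hp (by simp)
  | cons q ps ih =>
    obtain ⟨h1, h2⟩ := condf (show cond (f q) (allP f ps) false = true from h)
    intro p hp
    rcases List.mem_cons.1 hp with rfl | hp
    · exact h1
    · exact ih h2 p hp

theorem env {ws : List (List ℕ)} {k : ℕ → ℕ → List ℕ → Bool}
    (h : run 112 (slpAll ++ ws) codes (fun L => force (get (F2Mat.one 112) L (ws.length + 39)) fun A =>
      force (get (F2Mat.one 112) L (ws.length + 30)) fun B => k A B L) = true) :
    ∃ L' A B, List.Forall₂ (Codes 112) ((EY ws).map rho) L' ∧ Codes 112 (rho s) A ∧ Codes 112 (rho j) B ∧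
      k A B L' = true := by
  obtain ⟨L', h', hk⟩ := run_sound codes_gens h
  have h2 : List.Forall₂ (Codes 112) ((EY ws).map rho) L' := by
    unfold EY
    rw [← runG_map, map_LY, ← Cfsg.Agent.H935.J4Max.ListCl.runG_append]
    exact h'
  have hc : ∀ i, Codes 112 (rho (e i)) (get (F2Mat.one 112) L' (ws.length + i)) := by
    intro i
    have := codes_get h2 (ws.length + i)
    rwa [getG_map, EY_shift] at this
  have hs := hc 39
  have hj := hc 30
  rw [e_s] at hs
  rw [e_j] at hj
  rw [force_eq, force_eq] at hk
  exact ⟨L', _, _, h2, hs, hj, hk⟩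

theorem mean_of {ws : List (List ℕ)} {φ : Fm} {L' : List ℕ} (h2 : List.Forall₂ (Codes 112) ((EY ws).map rho) L')
    {x : 𝒢} (hx : ∃ X, Codes 112 (rho x) X ∧ evB φ (X :: L') = true) : Mean φ (x :: EY ws) := by
  obtain ⟨X, hX, ht⟩ := hx
  refine sound_fm ?_ ht
  rw [List.map_cons]
  exact List.Forall₂.cons hX h2

theorem top_sound {ws : List (List ℕ)} {φ : Fm} (h : chkTop ws φ = true) :
    ∀ x ∈ visit s j (top 3 tJ) 1, Mean φ (x :: EY ws) := by
  unfold chkTop at h
  obtain ⟨L', A, B, h2, hs, hj, hk⟩ := env (k := fun A B L => allB A B (fun X => evB φ (X :: L)) (top 3 tJ)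
    (F2Mat.one 112)) h
  intro x hx
  exact mean_of h2 (allB_sound hs hj (g := 1) (by rw [map_one]; exact Codes.one 112) hk x hx)

theorem sub_sound {ws : List (List ℕ)} {φ : Fm} {ps : List (List Bool)} (h : chkSub ws φ ps = true) :
    ∀ p ∈ ps, ∀ x ∈ subV s j p tJ 1, Mean φ (x :: EY ws) := by
  unfold chkSub at h
  obtain ⟨L', A, B, h2, hs, hj, hk⟩ := env (k := fun A B L => allP (fun p => subB A B (fun X => evB φ (X :: L)) p tJ
    (F2Mat.one 112)) ps) h
  intro p hp x hx
  exact mean_of h2 (subB_sound hs hj (g := 1) (by rw [map_one]; exact Codes.one 112) (allP_mem hk p hp) x hx)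

/-- **the split check** -/
theorem split_J {ws : List (List ℕ)} {φ : Fm} (h0 : chkTop ws φ = true)
    (h1 : chkSub ws φ [[false, false, false]] = true) (h2 : chkSub ws φ [[false, false, true]] = true)
    (h3 : chkSub ws φ [[false, true, false]] = true) (h4 : chkSub ws φ [[false, true, true]] = true)
    (h5 : chkSub ws φ [[true, false, false]] = true) (h6 : chkSub ws φ [[true, false, true]] = true)
    (h7 : chkSub ws φ [[true, true, false], [true, true, true]] = true) :
    ∀ x ∈ Loc5.J, Mean φ (x :: EY ws) := by
  intro x hx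
  rcases mem_sub 2 (mem_list x hx) with h | ⟨p, hp, h⟩
  · exact top_sound h0 x h
  · match p, hp with
    | [a, b, c], _ =>
      cases a <;> cases b <;> cases c
      · exact sub_sound h1 _ (by simp) x h
      · exact sub_sound h2 _ (by simp) x h
      · exact sub_sound h3 _ (by simp) x h
      · exact sub_sound h4 _ (by simp) x h
      · exact sub_sound h5 _ (by simp) x h
      · exact sub_sound h6 _ (by simp) x h
      · exact sub_sound h7 _ (by simp) x h
      · exact sub_sound h7 _ (by simp) x h

end Cfsg.Agent.H831.JM.Split
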