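import Cfsg.Agent.H831.JM.Env
import Cfsg.Agent.H793.MS.NodupFast

/-!
# The list of the elements of the group `J = 2³ · L₃(2)` (helper831)
-/

set_option autoImplicit false

open Cfsg

namespace Cfsg.Agent.H831.JM.JList

open Cfsg.Agent.Lib Cfsg.Agent.Lib.F2Mat Cfsg.Agent.Lib.F2MatGroup
open Cfsg.Agent.J4.Rep112 Cfsg.Agent.J4.LowerData Cfsg.Agent.J4.Lower
open Cfsg.Agent.H935.J4Max.ListCl (getG_runG_add)
open Cfsg.Agent.H793.MS (ndF nodup_of_ndF)
open Cfsg.Agent.H858 Cfsg.Agent.H858.VK Cfsg.Agent.H858.Data Cfsg.Agent.H858.Elem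
open Cfsg.Agent.H831.JM.Tree Cfsg.Agent.H831.JM.EnvData Cfsg.Agent.H831.JM.Env

local notation "𝒢" => Cfsg.Spor.J4

theorem shift (i : ℕ) : e (30 + i) = g i := getG_runG_add slpY LX i

theorem e_s : e 39 = s := (shift 9).trans sg_eq.symm
theorem e_j : e 30 = j := (shift 0).trans j_eq.symm
theorem e_f : e 33 = f := (shift 3).trans f_eq.symm
theorem e_r : e 32 = r := (shift 2).trans r_eq.symm

theorem nd : run 112 slpAll codes (fun L => force (get (F2Mat.one 112) L 39) fun A =>
    force (get (F2Mat.one 112) L 30) fun B => col A B tJ wJ [] (ndF 8)) = true := by decide +kernel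

theorem length_visit : (visit s j tJ 1).length = 1344 := by
  have h : ∀ (T : BT) (g : 𝒢) (g' : Multiplicative (ZMod 1)), (visit s j T g).length = (visit 1 1 T g').length := by
    intro T
    induction T with
    | o => intro g g'; rfl
    | l T ih => intro g g'; rw [visit, visit, List.length_cons, List.length_cons, ih _ (g' * 1)]
    | r T ih => intro g g'; rw [visit, visit, List.length_cons, List.length_cons, ih _ (g' * 1)]
    | b T U ih1 ih2 =>
      intro g g'
      rw [visit, visit, List.length_cons, List.length_cons, List.length_append, List.length_append,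
        ih1 _ (g' * 1), ih2 _ (g' * 1)]
  rw [h tJ 1 1]
  decide +kernel

theorem nodup : (visit s j tJ 1).Nodup := by
  obtain ⟨L', h', hk⟩ := codesY nd
  have hs := codes_e h' 39
  have hj := codes_e h' 30
  rw [e_s] at hs
  rw [e_j] at hj
  generalize get (F2Mat.one 112) L' 39 = A at hk hs
  generalize get (F2Mat.one 112) L' 30 = B at hk hj
  rw [force_eq, force_eq, col_eq] at hk
  exact nodup_visit hs hj (by decide +kernel) (nodup_of_ndF 8 hk)

/-- **the elements of `J`** -/
theorem mem_list : ∀ x ∈ Loc5.J, x ∈ visit s j tJ 1 := by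
  have : Finite 𝒢 := FixJ4.facts.1
  refine mem_visit (mem_of_visit Loc5.s_mem Loc5.j_mem (Subgroup.one_mem _)) nodup ?_
  rw [length_visit, Loc5.card_J]

/-- **the principle of enumeration** -/
theorem all_J {P : 𝒢 → Prop} {test : List ℕ → ℕ → Bool}
    (hP : ∀ L', List.Forall₂ (Codes 112) (LY.map rho) L' → ∀ x X, Codes 112 (rho x) X → test L' X = true → P x)
    (h : run 112 slpAll codes (fun L => force (get (F2Mat.one 112) L 39) fun A =>
      force (get (F2Mat.one 112) L 30) fun B => allB A B (test L) tJ (F2Mat.one 112)) = true) :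
    ∀ x ∈ Loc5.J, P x := by
  obtain ⟨L', h', hk⟩ := codesY h
  have hs := codes_e h' 39
  have hj := codes_e h' 30
  rw [e_s] at hs
  rw [e_j] at hj
  generalize get (F2Mat.one 112) L' 39 = A at hk hs
  generalize get (F2Mat.one 112) L' 30 = B at hk hj
  rw [force_eq, force_eq] at hk
  intro x hx
  obtain ⟨X, hX, ht⟩ := allB_sound hs hj (g := 1) (by rw [map_one]; exact Codes.one 112) hk x (mem_list x hx)
  exact hP L' h' x X hX ht

end Cfsg.Agent.H831.JM.JList
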