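import Cfsg.Agent.H831.JM.Tup
import Cfsg.Agent.H994.TwoGen.M12

/-!
# Generators of `M12` containing a Frobenius group of order 55 (helper831)
-/

set_option autoImplicit false

open Cfsg

namespace Cfsg.Agent.H831.JM.M12

open Cfsg.Agent.J4.M24Hom (fn)

/-- table of `pu` -/
def tu : List ℕ := [0, 6, 16, 8, 9, 5, 4, 17, 2, 18, 14, 23, 3, 1, 15, 21, 13, 10, 12, 11, 7, 22, 19, 20]
/-- table of `pu⁻¹` -/
def tui : List ℕ := [0, 13, 8, 12, 6, 5, 1, 20, 3, 4, 17, 19, 18, 16, 10, 14, 2, 7, 9, 22, 23, 15, 21, 11]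
/-- table of `pf` -/
def tf : List ℕ := [0, 18, 3, 1, 13, 5, 8, 20, 9, 4, 21, 17, 2, 6, 11, 7, 16, 10, 12, 23, 19, 14, 22, 15]
/-- table of `pf⁻¹` -/
def tfi : List ℕ := [0, 3, 12, 2, 9, 5, 13, 15, 6, 8, 17, 14, 18, 4, 21, 23, 16, 11, 1, 20, 7, 10, 22, 19]
/-- table of `pt` -/
def tt : List ℕ := [0, 18, 2, 12, 9, 5, 6, 15, 13, 4, 17, 21, 3, 8, 14, 7, 16, 10, 1, 19, 23, 11, 22, 20]
/-- table of `pt⁻¹` -/
def tti : List ℕ := [0, 18, 2, 12, 9, 5, 6, 15, 13, 4, 17, 21, 3, 8, 14, 7, 16, 10, 1, 19, 23, 11, 22, 20]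
/-- table of `pz` -/
def tz : List ℕ := [16, 9, 6, 8, 18, 22, 2, 10, 3, 1, 7, 23, 13, 12, 19, 17, 0, 15, 4, 14, 21, 20, 5, 11]
/-- table of `pz⁻¹` -/
def tzi : List ℕ := [16, 9, 6, 8, 18, 22, 2, 10, 3, 1, 7, 23, 13, 12, 19, 17, 0, 15, 4, 14, 21, 20, 5, 11]

/-- the permutation `pu` -/
def pu : Equiv.Perm GolayPt where
  toFun := fn tu
  invFun := fn tui
  left_inv := by decide +kernel
  right_inv := by decide +kernel

theorem pu_mem24 : pu ∈ M24 :=
  SporadicA.GolayWalk.mem_M24_of_table pu tu rfl (by decide +kernel) (by decide +kernel)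

open Cfsg.Agent.SporadicStructure.M11InvPerms Cfsg.Agent.MTwelveType.SylowModel in
theorem pu_dd : ∀ p ∈ dd, pu p ∈ dd := by decide +kernel

theorem pu_mem : pu ∈ Spor.M12 := MTwelveType.SylowModel.mem_M12 pu_mem24 pu_dd

/-- the permutation `pf` -/
def pf : Equiv.Perm GolayPt where
  toFun := fn tf
  invFun := fn tfi
  left_inv := by decide +kernel
  right_inv := by decide +kernel

theorem pf_mem24 : pf ∈ M24 :=
  SporadicA.GolayWalk.mem_M24_of_table pf tf rfl (by decide +kernel) (by decide +kernel)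

open Cfsg.Agent.SporadicStructure.M11InvPerms Cfsg.Agent.MTwelveType.SylowModel in
theorem pf_dd : ∀ p ∈ dd, pf p ∈ dd := by decide +kernel

theorem pf_mem : pf ∈ Spor.M12 := MTwelveType.SylowModel.mem_M12 pf_mem24 pf_dd

/-- the permutation `pt` -/
def pt : Equiv.Perm GolayPt where
  toFun := fn tt
  invFun := fn tti
  left_inv := by decide +kernel
  right_inv := by decide +kernel

theorem pt_mem24 : pt ∈ M24 :=
  SporadicA.GolayWalk.mem_M24_of_table pt tt rfl (by decide +kernel) (by decide +kernel)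

open Cfsg.Agent.SporadicStructure.M11InvPerms Cfsg.Agent.MTwelveType.SylowModel in
theorem pt_dd : ∀ p ∈ dd, pt p ∈ dd := by decide +kernel

theorem pt_mem : pt ∈ Spor.M12 := MTwelveType.SylowModel.mem_M12 pt_mem24 pt_dd

/-- the permutation `pz` -/
def pz : Equiv.Perm GolayPt where
  toFun := fn tz
  invFun := fn tzi
  left_inv := by decide +kernel
  right_inv := by decide +kernel

theorem pz_mem24 : pz ∈ M24 :=
  SporadicA.GolayWalk.mem_M24_of_table pz tz rfl (by decide +kernel) (by decide +kernel)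

open Cfsg.Agent.SporadicStructure.M11InvPerms Cfsg.Agent.MTwelveType.SylowModel in
theorem pz_dd : ∀ p ∈ dd, pz p ∈ dd := by decide +kernel

theorem pz_mem : pz ∈ Spor.M12 := MTwelveType.SylowModel.mem_M12 pz_mem24 pz_dd

theorem X_eq : H994.TwoGen.M12.X = pt * pu⁻¹ * pz * pu * pu * pz * pu * pz * pu * pt :=
  Equiv.ext (by decide +kernel)

theorem Y_eq : H994.TwoGen.M12.Y = pu * pu * pz * pu * pu * pt * pu⁻¹ * pu⁻¹ * pu⁻¹ * pt * pz * pu * pz * pu :=
  Equiv.ext (by decide +kernel)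

theorem X_in {K : Subgroup (Equiv.Perm GolayPt)} (hu : pu ∈ K) (ht : pt ∈ K) (hz : pz ∈ K) :
    H994.TwoGen.M12.X ∈ K := by
  rw [X_eq]
  exact (mul_mem (mul_mem (mul_mem (mul_mem (mul_mem (mul_mem (mul_mem (mul_mem (mul_mem ht (inv_mem hu)) hz) hu) hu) hz) hu) hz) hu) ht)

theorem Y_in {K : Subgroup (Equiv.Perm GolayPt)} (hu : pu ∈ K) (ht : pt ∈ K) (hz : pz ∈ K) :
    H994.TwoGen.M12.Y ∈ K := by
  rw [Y_eq]
  exact (mul_mem (mul_mem (mul_mem (mul_mem (mul_mem (mul_mem (mul_mem (mul_mem (mul_mem (mul_mem (mul_mem (mul_mem (mul_mem hu hu) hz) hu) hu) ht) (inv_mem hu)) (inv_mem hu)) (inv_mem hu)) ht) hz) hu) hz) hu)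

theorem rel_u : pu ^ 11 = 1 := Equiv.ext (by decide +kernel)
theorem rel_u1 : pu ≠ 1 := fun h => absurd (DFunLike.congr_fun h (some 1)) (by decide +kernel)
theorem rel_f : pf ^ 5 = 1 := Equiv.ext (by decide +kernel)
theorem rel_fu : pf * pu * pf⁻¹ = pu ^ 3 := Equiv.ext (by decide +kernel)
theorem rel_t : pt * pt = 1 := Equiv.ext (by decide +kernel)
theorem rel_tf : pt * pf * pt⁻¹ = pf⁻¹ := Equiv.ext (by decide +kernel)
theorem rel_ut : (pu * pt) ^ 3 = 1 := Equiv.ext (by decide +kernel)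
theorem rel_zf : pz * pf = pf * pz := Equiv.ext (by decide +kernel)
theorem rel_zt : pz * pt = pt * pz := Equiv.ext (by decide +kernel)
theorem rel_z1 : pz ≠ 1 := fun h => absurd (DFunLike.congr_fun h (some 1)) (by decide +kernel)
theorem rel_z : pz ^ 2 = 1 := Equiv.ext (by decide +kernel)
theorem rel_uz : (pu * pz) ^ 11 = 1 := Equiv.ext (by decide +kernel)

/-- the elements of the group -/
def mu : Spor.M12 := ⟨pu, pu_mem⟩
/-- the elements of the group -/
def mf : Spor.M12 := ⟨pf, pf_mem⟩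
/-- the elements of the group -/
def mt : Spor.M12 := ⟨pt, pt_mem⟩
/-- the elements of the group -/
def mz : Spor.M12 := ⟨pz, pz_mem⟩

theorem gen3 : Subgroup.closure ({mu, mt, mz} : Set Spor.M12) = ⊤ := by
  rw [eq_top_iff]
  have h1 : Spor.M12 ≤ (Subgroup.closure ({mu, mt, mz} : Set Spor.M12)).map Spor.M12.subtype := by
    rw [MonoidHom.map_closure]
    conv_lhs => rw [← H994.TwoGen.M12.closure_eq]
    have hu : pu ∈ Subgroup.closure (Spor.M12.subtype '' {mu, mt, mz}) :=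
      Subgroup.subset_closure ⟨mu, Or.inl rfl, rfl⟩
    have ht : pt ∈ Subgroup.closure (Spor.M12.subtype '' {mu, mt, mz}) :=
      Subgroup.subset_closure ⟨mt, Or.inr (Or.inl rfl), rfl⟩
    have hz : pz ∈ Subgroup.closure (Spor.M12.subtype '' {mu, mt, mz}) :=
      Subgroup.subset_closure ⟨mz, Or.inr (Or.inr rfl), rfl⟩
    rw [Subgroup.closure_le]
    rintro x (rfl | rfl)
    · exact X_in hu ht hz
    · exact Y_in hu ht hz
  rintro ⟨x, hx⟩ -
  obtain ⟨y, hy, h2⟩ := h1 hx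
  have h3 : y = ⟨x, hx⟩ := Subtype.ext h2
  rw [← h3]; exact hy

end Cfsg.Agent.H831.JM.M12

namespace Cfsg.Agent.H831.JM

open Cfsg.Agent.H831.JM.M12

/-- the system of generators of `M12` -/
theorem tup_M12 : Tup (X := Spor.M12) mu mf mt ∅ {mz} where
  u11 := Subtype.ext rel_u
  u1 := fun h => rel_u1 (congrArg Subtype.val h)
  f5 := Subtype.ext rel_f
  fu := Subtype.ext rel_fu
  t2 := Subtype.ext rel_t
  tf := Subtype.ext rel_tf
  ut := Subtype.ext rel_ut
  hv := fun x hx => absurd hx (Set.notMem_empty x)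
  hx := by
    rintro x rfl
    exact ⟨Subtype.ext rel_zf, Subtype.ext rel_zt, fun h => rel_z1 (congrArg Subtype.val h),
      Or.inl (Subtype.ext rel_z), Subtype.ext rel_uz⟩
  gen := by
    rw [eq_top_iff, ← gen3]
    apply Subgroup.closure_mono
    rintro x (rfl | rfl | rfl)
    · left; left; left; rfl
    · left; left; right; right; rfl
    · right; rfl

end Cfsg.Agent.H831.JM
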