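import Cfsg.Agent.H831.JM.Excl
import Cfsg.Agent.H994.TwoGen.M22

/-!
# Maximal subgroups of `J4` with socle the Mathieu group `M22` form one class (helper831)
-/

set_option autoImplicit false

open Cfsg

namespace Cfsg.Agent.H831.JM.MTT

open Cfsg.Agent.J4.M24Hom (fn)

/-- table of `pu` -/
def tu : List ℕ := [0, 22, 15, 1, 13, 12, 9, 11, 19, 17, 8, 16, 20, 14, 21, 6, 10, 3, 7, 4, 2, 18, 5, 23]
/-- table of `pu⁻¹` -/
def tui : List ℕ := [0, 3, 20, 17, 19, 22, 15, 18, 10, 6, 16, 7, 5, 4, 13, 2, 11, 9, 21, 8, 12, 14, 1, 23]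
/-- table of `pf` -/
def tf : List ℕ := [0, 1, 20, 9, 14, 15, 3, 11, 16, 5, 18, 8, 17, 7, 10, 6, 13, 2, 21, 19, 22, 4, 12, 23]
/-- table of `pf⁻¹` -/
def tfi : List ℕ := [0, 1, 17, 6, 21, 9, 15, 13, 11, 3, 14, 7, 22, 16, 4, 5, 8, 12, 10, 19, 2, 18, 20, 23]
/-- table of `pv` -/
def tv : List ℕ := [0, 19, 12, 21, 6, 18, 10, 16, 8, 14, 15, 7, 17, 11, 9, 4, 13, 20, 3, 1, 2, 5, 22, 23]
/-- table of `pv⁻¹` -/
def tvi : List ℕ := [0, 19, 20, 18, 15, 21, 4, 11, 8, 14, 6, 13, 2, 16, 9, 10, 7, 12, 5, 1, 17, 3, 22, 23]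

/-- the permutation `pu` -/
def pu : Equiv.Perm GolayPt where
  toFun := fn tu
  invFun := fn tui
  left_inv := by decide +kernel
  right_inv := by decide +kernel

theorem pu_mem24 : pu ∈ M24 :=
  SporadicA.GolayWalk.mem_M24_of_table pu tu rfl (by decide +kernel) (by decide +kernel)

theorem pu_mem : pu ∈ Spor.M22 :=
  (SporadicA.MathieuRecog.mem_M22_iff _).2 ⟨pu_mem24, by decide +kernel, by decide +kernel⟩

/-- the permutation `pf` -/
def pf : Equiv.Perm GolayPt where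
  toFun := fn tf
  invFun := fn tfi
  left_inv := by decide +kernel
  right_inv := by decide +kernel

theorem pf_mem24 : pf ∈ M24 :=
  SporadicA.GolayWalk.mem_M24_of_table pf tf rfl (by decide +kernel) (by decide +kernel)

theorem pf_mem : pf ∈ Spor.M22 :=
  (SporadicA.MathieuRecog.mem_M22_iff _).2 ⟨pf_mem24, by decide +kernel, by decide +kernel⟩

/-- the permutation `pv` -/
def pv : Equiv.Perm GolayPt where
  toFun := fn tv
  invFun := fn tvi
  left_inv := by decide +kernel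
  right_inv := by decide +kernel

theorem pv_mem24 : pv ∈ M24 :=
  SporadicA.GolayWalk.mem_M24_of_table pv tv rfl (by decide +kernel) (by decide +kernel)

theorem pv_mem : pv ∈ Spor.M22 :=
  (SporadicA.MathieuRecog.mem_M22_iff _).2 ⟨pv_mem24, by decide +kernel, by decide +kernel⟩

theorem X_eq : H994.TwoGen.M22.X = pu * pv * pu⁻¹ * pf⁻¹ * pv⁻¹ * pu⁻¹ * pv⁻¹ * pu * pv * pf⁻¹ * pu :=
  Equiv.ext (by decide +kernel)

theorem Y_eq : H994.TwoGen.M22.Y = pv * pu⁻¹ * pv * pu⁻¹ * pf * pv * pu⁻¹ * pv * pu⁻¹ * pf :=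
  Equiv.ext (by decide +kernel)

theorem rel_u : pu ^ 11 = 1 := Equiv.ext (by decide +kernel)
theorem rel_u1 : pu ≠ 1 := fun h => absurd (DFunLike.congr_fun h (some 1)) (by decide +kernel)
theorem rel_f : pf ^ 5 = 1 := Equiv.ext (by decide +kernel)
theorem rel_fu : pf * pu * pf⁻¹ = pu ^ 3 := Equiv.ext (by decide +kernel)
theorem rel_t : pv * pv * (pv * pv) = 1 := Equiv.ext (by decide +kernel)
theorem rel_tf : pv * pv * pf * (pv * pv)⁻¹ = pf⁻¹ := Equiv.ext (by decide +kernel)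
theorem rel_ut : (pu * (pv * pv)) ^ 3 = 1 := Equiv.ext (by decide +kernel)
theorem rel_vf : pv * pf * pv⁻¹ = pf ^ 2 := Equiv.ext (by decide +kernel)
theorem rel_uv : (pu * pv) ^ 7 = 1 := Equiv.ext (by decide +kernel)

/-- the elements of the group -/
def mu : Spor.M22 := ⟨pu, pu_mem⟩
/-- the elements of the group -/
def mf : Spor.M22 := ⟨pf, pf_mem⟩
/-- the elements of the group -/
def mv : Spor.M22 := ⟨pv, pv_mem⟩

theorem X_in {K : Subgroup (Equiv.Perm GolayPt)} (hu : pu ∈ K) (hf : pf ∈ K) (hv : pv ∈ K) :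
    H994.TwoGen.M22.X ∈ K := by
  rw [X_eq]
  exact (mul_mem (mul_mem (mul_mem (mul_mem (mul_mem (mul_mem (mul_mem (mul_mem (mul_mem (mul_mem hu hv) (inv_mem hu)) (inv_mem hf)) (inv_mem hv)) (inv_mem hu)) (inv_mem hv)) hu) hv) (inv_mem hf)) hu)

theorem Y_in {K : Subgroup (Equiv.Perm GolayPt)} (hu : pu ∈ K) (hf : pf ∈ K) (hv : pv ∈ K) :
    H994.TwoGen.M22.Y ∈ K := by
  rw [Y_eq]
  exact (mul_mem (mul_mem (mul_mem (mul_mem (mul_mem (mul_mem (mul_mem (mul_mem (mul_mem hv (inv_mem hu)) hv) (inv_mem hu)) hf) hv) (inv_mem hu)) hv) (inv_mem hu)) hf)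

theorem gen3 : Subgroup.closure ({mu, mf, mv} : Set Spor.M22) = ⊤ := by
  rw [eq_top_iff]
  have h1 : Spor.M22 ≤ (Subgroup.closure ({mu, mf, mv} : Set Spor.M22)).map Spor.M22.subtype := by
    rw [MonoidHom.map_closure]
    conv_lhs => rw [← H994.TwoGen.M22.closure_eq]
    have hu : pu ∈ Subgroup.closure (Spor.M22.subtype '' {mu, mf, mv}) :=
      Subgroup.subset_closure ⟨mu, Or.inl rfl, rfl⟩
    have hf : pf ∈ Subgroup.closure (Spor.M22.subtype '' {mu, mf, mv}) :=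
      Subgroup.subset_closure ⟨mf, Or.inr (Or.inl rfl), rfl⟩
    have hv : pv ∈ Subgroup.closure (Spor.M22.subtype '' {mu, mf, mv}) :=
      Subgroup.subset_closure ⟨mv, Or.inr (Or.inr rfl), rfl⟩
    rw [Subgroup.closure_le]
    rintro x (rfl | rfl)
    · exact X_in hu hf hv
    · exact Y_in hu hf hv
  rintro ⟨x, hx⟩ -
  obtain ⟨y, hy, h2⟩ := h1 hx
  have h3 : y = ⟨x, hx⟩ := Subtype.ext h2
  rw [← h3]; exact hy

/-- the system of generators of `M22` -/
theorem tup : Ex.TupW mu mf (mv * mv) {mv} ∅ where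
  u11 := Subtype.ext rel_u
  u1 := fun h => rel_u1 (congrArg Subtype.val h)
  f5 := Subtype.ext rel_f
  fu := Subtype.ext rel_fu
  t2 := Subtype.ext rel_t
  tf := Subtype.ext rel_tf
  ut := Subtype.ext rel_ut
  hv := by
    rintro v rfl
    exact ⟨Subtype.ext rel_vf, rfl, Or.inl (Subtype.ext rel_uv)⟩
  hx := fun x hx => absurd hx (Set.notMem_empty x)
  gen := by
    rw [eq_top_iff, ← gen3]
    apply Subgroup.closure_mono
    rintro x (rfl | rfl | rfl)
    · left; left; left; rfl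
    · left; left; right; left; rfl
    · left; right; rfl

end Cfsg.Agent.H831.JM.MTT

namespace Cfsg.Agent.H831.JM.MTT

open Cfsg.Agent.H858 Cfsg.Agent.H858.VK Cfsg.Agent.H858.Data Cfsg.Agent.H858.Elem
open Cfsg.Agent.H831.JM.Env Cfsg.Agent.H831.JM.Pair Cfsg.Agent.H831.JM.Ex
open Cfsg.Agent.H860.JM (NL cj cj_cj mem_cj cj_eq_iff centralizer_cj normalizer_cj)

local notation "𝒢" => Cfsg.Spor.J4

/-- up to conjugacy the socle is one explicit subgroup -/
theorem socle_conj {M S : Subgroup 𝒢} (hM : NL M S) (he : Nonempty (S ≃* Spor.M22)) :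
    ∃ g : 𝒢, cj g S = Subgroup.closure {uB, f, e 0} := by
  obtain ⟨e'⟩ := he
  set φ : Spor.M22 →* 𝒢 := S.subtype.comp e'.symm.toMonoidHom with hφ
  have hr : φ.range = S := by
    rw [hφ, MonoidHom.range_comp, MonoidHom.range_eq_top_of_surjective _ e'.symm.surjective, ← MonoidHom.range_eq_map,
      Subgroup.range_subtype]
  obtain ⟨g, hu, hf, v, hv, hgv⟩ := dich tup hM φ (S.subtype_injective.comp e'.symm.injective) hr
  obtain rfl : v = mv := hv
  refine ⟨g, ?_⟩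
  have h1 : cj g S = ((⊤ : Subgroup Spor.M22).map φ).map (MulAut.conj g).toMonoidHom := by
    rw [← MonoidHom.range_eq_map, hr, cj]
  rw [h1, Subgroup.map_map, ← gen3, MonoidHom.map_closure]
  congr 1
  rw [← hu, ← hf, ← hgv, Set.image_insert_eq, Set.image_insert_eq, Set.image_singleton]
  rfl

theorem norm_eq {M S : Subgroup 𝒢} (h : NL M S) : Subgroup.normalizer (S : Set 𝒢) = M := by
  rcases h.coatom.le_iff.1 h.norm with h1 | h1
  · exfalso
    have hs : IsSimpleGroup 𝒢 := isJ4.1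
    have hn : S.Normal := Subgroup.normalizer_eq_top_iff.1 h1
    rcases hn.eq_bot_or_eq_top with h2 | h2
    · have h3 := h.simple.toNontrivial
      rw [h2] at h3
      exact not_subsingleton (⊥ : Subgroup 𝒢) inferInstance
    · exact h.coatom.1 (top_le_iff.1 (h2 ▸ h.le))
  · exact h1

end Cfsg.Agent.H831.JM.MTT

namespace Cfsg.Agent.H831.JM

open Cfsg.Agent.H831.JM.Ex Cfsg.Agent.H831.JM.MTT
open Cfsg.Agent.H860.JM (NL cj cj_cj mem_cj cj_eq_iff centralizer_cj normalizer_cj)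

/-- **the maximal subgroups of `J4` with socle `M22` are conjugate** -/
theorem one_M22 : Cfsg.Agent.H860.JM.OneCl Spor.M22 := by
  intro M S M' S' h h' he he'
  obtain ⟨g, hg⟩ := socle_conj h he
  obtain ⟨g', hg'⟩ := socle_conj h' he'
  refine ⟨g'⁻¹ * g, ?_⟩
  have h1 : S' = cj (g'⁻¹ * g) S := by
    rw [← cj_cj, hg, ← hg', cj_inv]
  rw [← norm_eq h, ← norm_eq h', ← normalizer_cj, ← h1]

end Cfsg.Agent.H831.JM
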