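import Mathlib

/-!
# Pairs generating a Frobenius group of order 55 (helper831)
-/

set_option autoImplicit false

namespace Cfsg.Agent.H831.JM.PairAbs

open Subgroup

variable {G : Type*} [Group G]

theorem pow_act {F U : G} (h : F * U * F⁻¹ = U ^ 3) (k m : ℕ) : F ^ k * U ^ m * (F ^ k)⁻¹ = U ^ (3 ^ k * m) := by
  induction k with
  | zero => simp
  | succ k ih =>
    have e : F ^ (k + 1) * U ^ m * (F ^ (k + 1))⁻¹ = F * (F ^ k * U ^ m * (F ^ k)⁻¹) * F⁻¹ := by
      rw [pow_succ']; group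
    rw [e, ih, ← conj_pow, h, ← pow_mul]
    congr 1
    rw [pow_succ]; ring

/-- exponents modulo 11 -/
theorem exp_cases : ∀ m < 11, m ≠ 0 → ∃ i < 5, m * 3 ^ i % 11 = 1 ∨ m * 3 ^ i % 11 = 10 := by decide

theorem three_pow : ∀ k < 5, 3 ^ k % 11 = 3 → k = 1 := by decide

/-- the pairs `(f, u)` with `f u f⁻¹ = u³` and `u` conjugate to `U` are conjugate -/
theorem pair_conj [Finite G] (h25 : ¬ 25 ∣ Nat.card G) {U F R : G} (hU : orderOf U = 11) (hF : orderOf F = 5)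
    (hFU : F * U * F⁻¹ = U ^ 3) (hR : R * F = F * R) (hRU : R * U * R⁻¹ = U⁻¹) {f u : G} (hf : orderOf f = 5)
    (hfu : f * u * f⁻¹ = u ^ 3) (hu : IsConj u U) : ∃ g, g * f * g⁻¹ = F ∧ g * u * g⁻¹ = U := by
  classical
  have p5 : Fact (Nat.Prime 5) := ⟨by norm_num⟩
  obtain ⟨g, hg⟩ := isConj_iff.1 hu
  set f' := g * f * g⁻¹ with hf'
  have hf'5 : orderOf f' = 5 := by
    rw [← hf]
    exact MulEquiv.orderOf_eq (MulAut.conj g) f
  have hf'U : f' * U * f'⁻¹ = U ^ 3 := by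
    have e : f' * U * f'⁻¹ = g * (f * u * f⁻¹) * g⁻¹ := by rw [hf', ← hg]; group
    rw [e, hfu, ← conj_pow, hg]
  -- the normalizer
  set N := normalizer ((zpowers U : Subgroup G) : Set G) with hN
  have memN : ∀ {x : G} {k : ℕ}, x * U * x⁻¹ = U ^ k → x ∈ N := by
    intro x k hx
    rw [hN, mem_normalizer_iff]
    have h1 : (zpowers U).map (MulAut.conj x).toMonoidHom = zpowers U := by
      have hsub : (zpowers U).map (MulAut.conj x).toMonoidHom ≤ zpowers U := by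
        rw [MonoidHom.map_zpowers, zpowers_le]
        show x * U * x⁻¹ ∈ zpowers U
        rw [hx]
        exact pow_mem (mem_zpowers U) k
      refine eq_of_le_of_card_ge hsub ?_
      rw [Subgroup.card_map_of_injective (MulAut.conj x).injective]
    intro y
    constructor
    · intro hy
      have h2 : x * y * x⁻¹ ∈ (zpowers U).map (MulAut.conj x).toMonoidHom := ⟨y, hy, rfl⟩
      rwa [h1] at h2
    · intro hy
      have h2 : x * y * x⁻¹ ∈ (zpowers U).map (MulAut.conj x).toMonoidHom := by rw [h1]; exact hy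
      obtain ⟨z, hz, h3⟩ := h2
      have h4 : z = y := (MulAut.conj x).injective h3
      exact h4 ▸ hz
  have hFN : F ∈ N := memN hFU
  have hf'N : f' ∈ N := memN hf'U
  have h25N : ¬ 25 ∣ Nat.card N := fun h => h25 (h.trans (card_subgroup_dvd_card N))
  -- Sylow subgroups
  have syl : ∀ x : N, orderOf x = 5 → ∃ P : Sylow 5 N, (P : Subgroup N) = zpowers x := by
    intro x hx
    have h1 : IsPGroup 5 (zpowers x) := IsPGroup.of_card (n := 1) (by rw [Nat.card_zpowers, hx, pow_one])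
    obtain ⟨P, hP⟩ := h1.exists_le_sylow
    refine ⟨P, ?_⟩
    symm
    apply eq_of_le_of_card_ge hP
    obtain ⟨n, hn⟩ := IsPGroup.iff_card.1 P.2
    rw [Nat.card_zpowers, hx, hn]
    have h2 : 5 ^ n ∣ Nat.card N := hn ▸ card_subgroup_dvd_card (P : Subgroup N)
    have h3 : n ≤ 1 := by
      by_contra h4
      exact h25N ((show 25 = 5 ^ 2 by norm_num) ▸ (pow_dvd_pow 5 (by omega)).trans h2)
    calc 5 ^ n ≤ 5 ^ 1 := Nat.pow_le_pow_right (by norm_num) h3
      _ = 5 := by norm_num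
  have ho1 : orderOf (⟨F, hFN⟩ : N) = 5 := by rw [← hF]; exact Subgroup.orderOf_mk F hFN
  have ho2 : orderOf (⟨f', hf'N⟩ : N) = 5 := by rw [← hf'5]; exact Subgroup.orderOf_mk f' hf'N
  obtain ⟨P, hP⟩ := syl _ ho1
  obtain ⟨Q, hQ⟩ := syl _ ho2
  obtain ⟨n, hn⟩ := MulAction.exists_smul_eq N Q P
  have hmem : (n : G) * f' * (n : G)⁻¹ ∈ zpowers F := by
    have h1 : (n * ⟨f', hf'N⟩ * n⁻¹ : N) ∈ (P : Subgroup N) := by
      rw [← hn, Sylow.coe_subgroup_smul]
      exact Subgroup.smul_mem_pointwise_smul (⟨f', hf'N⟩ : N) (MulAut.conj n) (Q : Subgroup N)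
        (by rw [hQ]; exact mem_zpowers _)
    rw [hP] at h1
    obtain ⟨k, hk⟩ := h1
    exact ⟨k, congrArg Subtype.val hk⟩
  have hfin : IsOfFinOrder F := isOfFinOrder_of_finite F
  obtain ⟨k, hk, hk'⟩ := Finset.mem_image.1 (mem_zpowers_iff_mem_range_orderOf.1 hmem)
  rw [hF, Finset.mem_range] at hk
  -- the action of `n` on `U`
  have hnU : (n : G) * U * (n : G)⁻¹ ∈ zpowers U := (mem_normalizer_iff.1 n.2 U).1 (mem_zpowers U)
  obtain ⟨m, hm, hm'⟩ := Finset.mem_image.1 (mem_zpowers_iff_mem_range_orderOf.1 hnU)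
  rw [hU, Finset.mem_range] at hm
  change F ^ k = (n : G) * f' * (n : G)⁻¹ at hk'
  change U ^ m = (n : G) * U * (n : G)⁻¹ at hm'
  have hm0 : m ≠ 0 := by
    rintro rfl
    rw [pow_zero] at hm'
    have h1 : U = 1 := by
      have e : U = (n : G)⁻¹ * ((n : G) * U * (n : G)⁻¹) * n := by group
      rw [e, ← hm']; group
    rw [h1, orderOf_one] at hU
    norm_num at hU
  -- `k = 1`
  have h1 : F ^ k * U ^ m * (F ^ k)⁻¹ = U ^ (3 * m) := by
    rw [hk', hm']
    have e : (n : G) * f' * (n : G)⁻¹ * ((n : G) * U * (n : G)⁻¹) * ((n : G) * f' * (n : G)⁻¹)⁻¹ =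
        (n : G) * (f' * U * f'⁻¹) * (n : G)⁻¹ := by group
    rw [e, hf'U, ← conj_pow, ← hm', ← pow_mul]
    congr 1
    ring
  have hk1 : k = 1 := by
    rw [pow_act hFU, pow_inj_mod, hU] at h1
    apply three_pow k hk
    have h2 : (3 ^ k * m) ≡ 3 * m [MOD 11] := h1
    have h3 : Nat.gcd 11 m = 1 := (Nat.Prime.coprime_iff_not_dvd (by norm_num)).2
      fun h => absurd (Nat.le_of_dvd (by omega) h) (by omega)
    exact (Nat.ModEq.cancel_right_of_coprime h3 h2)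
  subst hk1
  rw [pow_one] at hk'
  obtain ⟨i, hi, h2⟩ := exp_cases m hm hm0
  have h3 : F ^ i * ((n : G) * U * (n : G)⁻¹) * (F ^ i)⁻¹ = U ^ (m * 3 ^ i % 11) := by
    rw [← hm', pow_act hFU, ← hU, pow_mod_orderOf, mul_comm]
  have h4 : F ^ i * ((n : G) * f' * (n : G)⁻¹) * (F ^ i)⁻¹ = F := by
    rw [← hk', ← pow_succ, pow_succ']; group
  rcases h2 with h2 | h2
  · refine ⟨F ^ i * n * g, ?_, ?_⟩
    · have e : F ^ i * n * g * f * (F ^ i * n * g)⁻¹ =
          F ^ i * ((n : G) * (g * f * g⁻¹) * (n : G)⁻¹) * (F ^ i)⁻¹ := by group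
      rw [e, ← hf', h4]
    · rw [h2, pow_one] at h3
      have e : F ^ i * n * g * u * (F ^ i * n * g)⁻¹ =
          F ^ i * ((n : G) * (g * u * g⁻¹) * (n : G)⁻¹) * (F ^ i)⁻¹ := by group
      rw [e, hg, h3]
  · have h5 : U ^ 10 = U⁻¹ := by
      have h7 := pow_orderOf_eq_one U
      rw [hU] at h7
      rw [eq_inv_iff_mul_eq_one, ← pow_succ]
      exact h7
    rw [h2, h5] at h3
    have h6 : R * F * R⁻¹ = F := by rw [hR]; group
    refine ⟨R * F ^ i * n * g, ?_, ?_⟩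
    · have e : R * F ^ i * n * g * f * (R * F ^ i * n * g)⁻¹ =
          R * (F ^ i * ((n : G) * (g * f * g⁻¹) * (n : G)⁻¹) * (F ^ i)⁻¹) * R⁻¹ := by group
      rw [e, ← hf', h4, h6]
    · have e : R * F ^ i * n * g * u * (R * F ^ i * n * g)⁻¹ =
          R * (F ^ i * ((n : G) * (g * u * g⁻¹) * (n : G)⁻¹) * (F ^ i)⁻¹) * R⁻¹ := by group
      rw [e, hg, h3]
      have e2 : R * U⁻¹ * R⁻¹ = (R * U * R⁻¹)⁻¹ := by group
      rw [e2, hRU, inv_inv]

end Cfsg.Agent.H831.JM.PairAbs
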