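import Cfsg.Agent.H831.JM.Pair

/-!
# The point fixed by `uB` and `f` (helper831)
-/

set_option autoImplicit false

open Cfsg

namespace Cfsg.Agent.H831.JM.Point

open Cfsg.Agent.Lib Cfsg.Agent.Lib.F2Mat Cfsg.Agent.Lib.F2MatGroup
open Cfsg.Agent.J4.Rep112 Cfsg.Agent.J4.Pres Cfsg.Agent.J4.M24Hom Cfsg.Agent.J4.Nodes
open Cfsg.Agent.J4.Upper (rw20 evalW)
open Cfsg.Agent.J4.Invol (EJ)
open Cfsg.Agent.H858 Cfsg.Agent.H858.VK Cfsg.Agent.H858.Data Cfsg.Agent.H858.Elem Cfsg.Agent.H858.Fix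
open Cfsg.Agent.H831.JM.Tree Cfsg.Agent.H831.JM.EnvData Cfsg.Agent.H831.JM.Env Cfsg.Agent.H831.JM.JList
open Cfsg.Agent.H831.JM.Pair

local notation "𝒢" => Cfsg.Spor.J4

/-- the row vector of the point `EJ` -/
def p0 : ℕ := 5192296858534827628530496329220095

/-- the stabilizer of a row vector -/
noncomputable def Stv (v : ℕ) : Subgroup 𝒢 where
  carrier := {g | vv v g = F2Mat.toVec 112 v}
  one_mem' := by
    show vv v 1 = _
    unfold vv
    rw [map_one, Units.val_one, Matrix.vecMul_one]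
  mul_mem' := by
    intro a b (ha : vv v a = _) (hb : vv v b = _)
    show vv v (a * b) = _
    unfold vv at ha hb ⊢
    rw [map_mul, Units.val_mul, ← Matrix.vecMul_vecMul, ha, hb]
  inv_mem' := by
    intro a (ha : vv v a = _)
    show vv v a⁻¹ = _
    unfold vv at ha ⊢
    conv_lhs => rw [← ha]
    rw [Matrix.vecMul_vecMul, ← Units.val_mul, ← map_mul, mul_inv_cancel, map_one, Units.val_one, Matrix.vecMul_one]

theorem mem_Stv {v : ℕ} {g : 𝒢} : g ∈ Stv v ↔ vv v g = F2Mat.toVec 112 v := Iff.rfl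

/-- number of a letter -/
def ix (a : ℕ) : ℕ := [56, 57, 58, 59].getD a 58

/-- the image of a row vector under a word -/
noncomputable def wv (L : List ℕ) (w : List ℕ) : ℕ → ℕ :=
  List.rec (motive := fun _ => ℕ → ℕ) (fun v => v)
    (fun a _ ih v => force (F2Mat.vmul 112 v (get (F2Mat.one 112) L (ix a))) ih) w

theorem wv_cons (L : List ℕ) (a : ℕ) (w : List ℕ) (v : ℕ) :
    wv L (a :: w) v = wv L w (F2Mat.vmul 112 v (get (F2Mat.one 112) L (ix a))) := by
  show force _ _ = _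
  generalize F2Mat.vmul 112 v (get (F2Mat.one 112) L (ix a)) = u
  rw [force_eq]
  rfl

/-- the check -/
noncomputable def chkP (L : List ℕ) : Bool :=
  (([56, 57, 43, 44, 45, 46, 47, 48, 49, 50, 51, 52, 53] : List ℕ).all fun i =>
    Nat.beq (F2Mat.vmul 112 p0 (get (F2Mat.one 112) L i)) p0) &&
  ((List.range 20).all fun i => Nat.beq i 0 || !Nat.beq (wv L (rw20 i) p0) p0) &&
  Nat.beq (F2Mat.vmul 112 p0 (get (F2Mat.one 112) L 25)) pB

theorem checkP : run 112 slpAll codes chkP = true := by decide +kernel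

theorem e_t : e 59 = t := (shift 29).trans g29

theorem letter {a : ℕ} (ha : a < 4) : e (ix a) = if a = 3 then t else phi (letG a) := by
  interval_cases a
  · exact e_x.trans phi_X.symm
  · exact e_y.trans phi_Y.symm
  · refine e_yi.trans ?_
    show y⁻¹ = phi YM⁻¹
    rw [map_inv, phi_Y]
  · exact e_t

theorem wv_eq {L' : List ℕ} (h' : List.Forall₂ (Codes 112) (LY.map rho) L') {w : List ℕ} (hw : ∀ a ∈ w, a < 4)
    {v u : ℕ} {g : 𝒢} (hg : F2Mat.toVec 112 u = vv v g) :
    F2Mat.toVec 112 (wv L' w u) = vv v (g * evalW phi t w) := by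
  induction w generalizing u g with
  | nil => rw [show evalW phi t [] = 1 from rfl, mul_one]; exact hg
  | cons a w ih =>
    have h1 := codes_e h' (ix a)
    rw [wv_cons, ih (fun a ha => hw a (List.mem_cons_of_mem _ ha)) (vv_mul hg h1)]
    congr 1
    rw [mul_assoc, letter (hw a List.mem_cons_self)]
    rfl

theorem rw20_lt : ∀ i < 20, ∀ a ∈ rw20 i, a < 4 := by decide +kernel

theorem facts : (∀ i ∈ ([56, 57, 43, 44, 45, 46, 47, 48, 49, 50, 51, 52, 53] : List ℕ), e i ∈ Stv p0) ∧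
    (∀ i : Fin 20, FixJ4.r i ∈ Stv p0 → i = 0) ∧ F2Mat.toVec 112 pB = vv p0 G2 := by
  obtain ⟨L', h', hk⟩ := codesY checkP
  unfold chkP at hk
  rw [Bool.and_eq_true, Bool.and_eq_true] at hk
  obtain ⟨⟨h1, h2⟩, h3⟩ := hk
  refine ⟨?_, ?_, ?_⟩
  · intro i hi
    have h4 := Nat.eq_of_beq_eq_true (List.all_eq_true.1 h1 i hi)
    have h5 := codes_e h' i
    rw [mem_Stv]
    unfold vv
    unfold Codes at h5
    rw [h5, ← toVec_vmul, h4]
  · intro i hi
    have h4 := List.all_eq_true.1 h2 i (List.mem_range.2 i.2)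
    rw [Bool.or_eq_true] at h4
    rcases h4 with h4 | h4
    · exact Fin.ext (Nat.eq_of_beq_eq_true h4)
    · exfalso
      have h5 := wv_eq h' (rw20_lt i i.2) (v := p0) (u := p0) (g := 1) (by
        unfold vv; rw [map_one, Units.val_one, Matrix.vecMul_one])
      rw [one_mul] at h5
      have h6 : vv p0 (evalW phi t (rw20 i)) = F2Mat.toVec 112 p0 := hi
      rw [h6] at h5
      have h7 : wv L' (rw20 i) p0 = p0 := by
        refine toVec_inj ?_ (by norm_num [p0]) h5
        have key : ∀ (w : List ℕ) (v : ℕ), v < 2 ^ 112 → wv L' w v < 2 ^ 112 := by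
          intro w
          induction w with
          | nil => intro v hv; exact hv
          | cons a w ih => intro v _; rw [wv_cons]; exact ih _ (vmul_lt _ _)
        exact key _ _ (by norm_num [p0])
      rw [h7, Nat.beq_refl] at h4
      exact absurd h4 (by decide)
  · have h4 := Nat.eq_of_beq_eq_true h3
    have h5 := codes_e h' 25
    unfold vv
    unfold Codes at h5
    rw [h5, ← toVec_vmul, h4]

theorem phi_mem (m : M24) : phi m ∈ Stv p0 := by
  have h1 : (Subgroup.closure ({XM, YM} : Set M24)) ≤ (Stv p0).comap phi := by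
    rw [Subgroup.closure_le]
    rintro z (rfl | rfl)
    · show phi XM ∈ Stv p0
      rw [phi_X, ← e_x]
      exact facts.1 56 (by simp)
    · show phi YM ∈ Stv p0
      rw [phi_Y, ← e_y]
      exact facts.1 57 (by simp)
  rw [closure_XYM] at h1
  exact h1 (Subgroup.mem_top m)

theorem EJ_le : EJ ≤ Stv p0 := by
  intro x hx
  obtain ⟨v, -, rfl⟩ := mem_EJ.1 hx
  unfold V
  have h1 : ∀ a ∈ lJ, a ∈ Stv p0 := by
    intro a ha
    obtain ⟨k, hk, hka⟩ := List.getElem_of_mem ha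
    have hk' : k < 11 := by rwa [lJ_length] at hk
    have h2 : getG LX (13 + k) = lJ.getD k 1 := getG_LX hk'
    have h3 : e (30 + (13 + k)) = a :=
      (shift (13 + k)).trans (h2.trans ((List.getD_eq_getElem _ _ hk).trans hka))
    rw [← h3]
    refine facts.1 _ ?_
    interval_cases k <;> simp
  exact Cfsg.Agent.J4.Beta.beta_mem (Stv p0) lJ h1 v

/-- **the stabilizer of `p0`** -/
theorem Stv_p0 : Stv p0 = FixJ4.B := by
  apply le_antisymm
  · intro g hg
    obtain ⟨i, m, h⟩ := FixJ4.cover (QuotientGroup.mk g)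
    have h1 : (QuotientGroup.mk g : 𝒢 ⧸ FixJ4.B) = QuotientGroup.mk (phi m * (FixJ4.r i)⁻¹) := h
    rw [QuotientGroup.eq] at h1
    have hB : FixJ4.B ≤ Stv p0 := by
      intro x hx
      obtain ⟨a, ha, k, rfl⟩ := mem_B.1 hx
      exact Subgroup.mul_mem _ (EJ_le ha) (phi_mem k)
    have h2 : FixJ4.r i ∈ Stv p0 := by
      have e1 : FixJ4.r i = (g⁻¹ * (phi m * (FixJ4.r i)⁻¹))⁻¹ * g⁻¹ * phi m := by group
      rw [e1]
      exact Subgroup.mul_mem _ (Subgroup.mul_mem _ (Subgroup.inv_mem _ (hB h1)) (Subgroup.inv_mem _ hg)) (phi_mem m)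
    have h3 := facts.2.1 i h2
    subst h3
    have h4 : FixJ4.r 0 = 1 := rfl
    rw [h4, inv_one, mul_one] at h1
    have e2 : g = phi m * (g⁻¹ * phi m)⁻¹ := by group
    rw [e2]
    exact Subgroup.mul_mem _ (mem_B.2 ⟨1, Subgroup.one_mem _, m, (one_mul _).symm⟩) (Subgroup.inv_mem _ h1)
  · intro x hx
    obtain ⟨a, ha, k, rfl⟩ := mem_B.1 hx
    exact Subgroup.mul_mem _ (EJ_le ha) (phi_mem k)

/-- the stabilizer of the point fixed by `uB` and `f` -/
noncomputable def MB : Subgroup 𝒢 := Stv pB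

theorem mem_MB {g : 𝒢} : g ∈ MB ↔ G2 * g * G2⁻¹ ∈ FixJ4.B := by
  have h := facts.2.2
  have key : ∀ x : 𝒢, vv pB x = vv p0 (G2 * x) := by
    intro x
    unfold vv at h ⊢
    rw [h, map_mul, Units.val_mul, Matrix.vecMul_vecMul]
  unfold MB
  rw [← Stv_p0, mem_Stv, mem_Stv, key, h]
  constructor
  · intro h1
    have h2 : vv p0 (G2 * g * G2⁻¹) = vv p0 (G2 * G2⁻¹) := by
      unfold vv at h1 ⊢
      rw [map_mul rho (G2 * g), Units.val_mul, ← Matrix.vecMul_vecMul, h1, Matrix.vecMul_vecMul, ← Units.val_mul,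
        ← map_mul]
    rw [h2, mul_inv_cancel]
    unfold vv
    rw [map_one, Units.val_one, Matrix.vecMul_one]
  · intro h1
    have h2 : vv p0 (G2 * g) = vv p0 (G2 * g * G2⁻¹ * G2) := by rw [inv_mul_cancel_right]
    rw [h2]
    unfold vv at h1 ⊢
    rw [map_mul rho (G2 * g * G2⁻¹), Units.val_mul, ← Matrix.vecMul_vecMul, h1]

end Cfsg.Agent.H831.JM.Point
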