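import Cfsg.Agent.H831.JM.M22
import Cfsg.Agent.H831.JM.M12
import Cfsg.Agent.H814.JM.M23M24

/-!
# No maximal subgroup of `J4` has socle `M12`, `M23` or `M24` (helper831)
-/

set_option autoImplicit false

namespace Cfsg.Agent.H831.JM

open Cfsg

theorem excl_M12 : Cfsg.Agent.H860.JM.Excl Spor.M12 := excl_of_tup tup_M12

theorem excl_M23 : Cfsg.Agent.H860.JM.Excl Spor.M23 := excl_of_tup Cfsg.Agent.H814.JM.M23M24.tup_M23

theorem excl_M24 : Cfsg.Agent.H860.JM.Excl M24 := excl_of_tup Cfsg.Agent.H814.JM.M23M24.tup_M24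

end Cfsg.Agent.H831.JM
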