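import Cfsg.Agent.H935.J4Max.ListCl

/-!
# Walking through a group along a spanning tree of a Cayley graph (helper831)
-/

set_option autoImplicit false

namespace Cfsg.Agent.H831.JM.Tree

open Cfsg.Agent.Lib Cfsg.Agent.Lib.F2Mat Cfsg.Agent.Lib.F2MatGroup Cfsg.Agent.J4.Rep112
open Cfsg.Agent.H935.J4Max.Eval Cfsg.Agent.H935.J4Max.ListCl

/-- binary trees: no child, a left child, a right child, both -/
inductive BT : Type
  | o : BT
  | l : BT → BT
  | r : BT → BT
  | b : BT → BT → BT

/-- the elements visited -/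
def visit {G : Type*} [Group G] (a b : G) : BT → G → List G
  | .o, g => [g]
  | .l T, g => g :: visit a b T (g * a)
  | .r T, g => g :: visit a b T (g * b)
  | .b T U, g => g :: (visit a b T (g * a) ++ visit a b U (g * b))

theorem mem_of_visit {G : Type*} [Group G] {a b : G} {H : Subgroup G} (ha : a ∈ H) (hb : b ∈ H) {T : BT} {g : G}
    (hg : g ∈ H) : ∀ x ∈ visit a b T g, x ∈ H := by
  induction T generalizing g with
  | o =>
    intro x hx
    rw [visit, List.mem_singleton] at hx
    exact hx ▸ hg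
  | l T ih =>
    intro x hx
    rw [visit, List.mem_cons] at hx
    rcases hx with rfl | hx
    · exact hg
    · exact ih (H.mul_mem hg ha) x hx
  | r T ih =>
    intro x hx
    rw [visit, List.mem_cons] at hx
    rcases hx with rfl | hx
    · exact hg
    · exact ih (H.mul_mem hg hb) x hx
  | b T U ih1 ih2 =>
    intro x hx
    rw [visit, List.mem_cons, List.mem_append] at hx
    rcases hx with rfl | hx | hx
    · exact hg
    · exact ih1 (H.mul_mem hg ha) x hx
    · exact ih2 (H.mul_mem hg hb) x hx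

/-- the test of all elements -/
noncomputable def allB (A B : ℕ) (test : ℕ → Bool) (T : BT) : ℕ → Bool :=
  BT.rec (motive := fun _ => ℕ → Bool) test
    (fun _ ih M => cond (test M) (force (F2Mat.mul 112 M A) ih) false)
    (fun _ ih M => cond (test M) (force (F2Mat.mul 112 M B) ih) false)
    (fun _ _ ih1 ih2 M => cond (test M) (cond (force (F2Mat.mul 112 M A) ih1) (force (F2Mat.mul 112 M B) ih2) false)
      false) T

theorem condf {a b : Bool} (h : cond a b false = true) : a = true ∧ b = true := by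
  cases a
  · exact absurd h Bool.false_ne_true
  · exact ⟨rfl, h⟩

theorem allB_sound {a b : Cfsg.Spor.J4} {A B : ℕ} (ha : Codes 112 (rho a) A) (hb : Codes 112 (rho b) B)
    {test : ℕ → Bool} {T : BT} {g : Cfsg.Spor.J4} {M : ℕ} (hg : Codes 112 (rho g) M) (h : allB A B test T M = true) :
    ∀ x ∈ visit a b T g, ∃ X, Codes 112 (rho x) X ∧ test X = true := by
  induction T generalizing g M with
  | o =>
    intro x hx
    rw [visit, List.mem_singleton] at hx
    exact ⟨M, hx ▸ hg, h⟩
  | l T ih =>
    intro x hx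
    rw [visit, List.mem_cons] at hx
    obtain ⟨h1, h2⟩ := condf (show cond (test M) (force (F2Mat.mul 112 M A) (allB A B test T)) false = true from h)
    rw [force_eq] at h2
    rcases hx with rfl | hx
    · exact ⟨M, hg, h1⟩
    · exact ih (g := g * a) (by rw [map_mul]; exact hg.mul ha) h2 x hx
  | r T ih =>
    intro x hx
    rw [visit, List.mem_cons] at hx
    obtain ⟨h1, h2⟩ := condf (show cond (test M) (force (F2Mat.mul 112 M B) (allB A B test T)) false = true from h)
    rw [force_eq] at h2
    rcases hx with rfl | hx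
    · exact ⟨M, hg, h1⟩
    · exact ih (g := g * b) (by rw [map_mul]; exact hg.mul hb) h2 x hx
  | b T U ih1 ih2 =>
    intro x hx
    rw [visit, List.mem_cons, List.mem_append] at hx
    obtain ⟨h1, h2⟩ := condf (show cond (test M) (cond (force (F2Mat.mul 112 M A) (allB A B test T))
      (force (F2Mat.mul 112 M B) (allB A B test U)) false) false = true from h)
    obtain ⟨h3, h4⟩ := condf h2
    rw [force_eq] at h3 h4
    rcases hx with rfl | hx | hx
    · exact ⟨M, hg, h1⟩
    · exact ih1 (g := g * a) (by rw [map_mul]; exact hg.mul ha) h3 x hx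
    · exact ih2 (g := g * b) (by rw [map_mul]; exact hg.mul hb) h4 x hx

/-! ### Vectors -/

/-- the list of the vectors `v x`, newest first, before the list `acc` -/
def vl (A B : ℕ) : BT → ℕ → List ℕ → List ℕ
  | .o, v, acc => v :: acc
  | .l T, v, acc => vl A B T (F2Mat.vmul 112 v A) (v :: acc)
  | .r T, v, acc => vl A B T (F2Mat.vmul 112 v B) (v :: acc)
  | .b T U, v, acc => vl A B U (F2Mat.vmul 112 v B) (vl A B T (F2Mat.vmul 112 v A) (v :: acc))

/-- the same, with a continuation, for the kernel -/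
noncomputable def col (A B : ℕ) (T : BT) : ℕ → List ℕ → (List ℕ → Bool) → Bool :=
  BT.rec (motive := fun _ => ℕ → List ℕ → (List ℕ → Bool) → Bool) (fun v acc k => k (v :: acc))
    (fun _ ih v acc k => force (F2Mat.vmul 112 v A) fun v' => ih v' (v :: acc) k)
    (fun _ ih v acc k => force (F2Mat.vmul 112 v B) fun v' => ih v' (v :: acc) k)
    (fun _ _ ih1 ih2 v acc k => force (F2Mat.vmul 112 v A) fun v' => ih1 v' (v :: acc) fun acc' =>
      force (F2Mat.vmul 112 v B) fun v'' => ih2 v'' acc' k) T

theorem col_eq (A B : ℕ) (T : BT) (v : ℕ) (acc : List ℕ) (k : List ℕ → Bool) :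
    col A B T v acc k = k (vl A B T v acc) := by
  induction T generalizing v acc k with
  | o => rfl
  | l T ih =>
    show force (F2Mat.vmul 112 v A) (fun v' => col A B T v' (v :: acc) k) = _
    rw [force_eq, ih]; rfl
  | r T ih =>
    show force (F2Mat.vmul 112 v B) (fun v' => col A B T v' (v :: acc) k) = _
    rw [force_eq, ih]; rfl
  | b T U ih1 ih2 =>
    show force (F2Mat.vmul 112 v A) (fun v' => col A B T v' (v :: acc) fun acc' =>
      force (F2Mat.vmul 112 v B) fun v'' => col A B U v'' acc' k) = _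
    rw [force_eq, ih1, force_eq, ih2]; rfl

/-- the vector of an element -/
noncomputable def vv (v : ℕ) (x : Cfsg.Spor.J4) : Fin 112 → ZMod 2 :=
  Matrix.vecMul (F2Mat.toVec 112 v) ((rho x : GL (Fin 112) (ZMod 2)) : Matrix (Fin 112) (Fin 112) (ZMod 2))

theorem vv_mul {v v' : ℕ} {g a : Cfsg.Spor.J4} (h : F2Mat.toVec 112 v' = vv v g) {A : ℕ} (ha : Codes 112 (rho a) A) :
    F2Mat.toVec 112 (F2Mat.vmul 112 v' A) = vv v (g * a) := by
  unfold vv at h ⊢
  unfold Codes at ha
  rw [toVec_vmul, h, ← ha, map_mul, Units.val_mul, Matrix.vecMul_vecMul]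

theorem vl_eq {a b : Cfsg.Spor.J4} {A B : ℕ} (ha : Codes 112 (rho a) A) (hb : Codes 112 (rho b) B)
    {w : ℕ} {T : BT} {g : Cfsg.Spor.J4} {v : ℕ} (hg : F2Mat.toVec 112 v = vv w g) (acc : List ℕ) :
    (vl A B T v acc).map (F2Mat.toVec 112) =
      ((visit a b T g).map (vv w)).reverse ++ acc.map (F2Mat.toVec 112) := by
  induction T generalizing g v acc with
  | o => simp [vl, visit, hg]
  | l T ih =>
    rw [vl, visit, ih (vv_mul hg ha)]
    simp [hg]
  | r T ih =>
    rw [vl, visit, ih (vv_mul hg hb)]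
    simp [hg]
  | b T U ih1 ih2 =>
    rw [vl, visit, ih2 (vv_mul hg hb), ih1 (vv_mul hg ha)]
    simp [hg]

theorem vl_lt {A B : ℕ} {T : BT} {v : ℕ} (hv : v < 2 ^ 112) {acc : List ℕ} (hacc : ∀ a ∈ acc, a < 2 ^ 112) :
    ∀ a ∈ vl A B T v acc, a < 2 ^ 112 := by
  induction T generalizing v acc with
  | o =>
    intro a ha
    rw [vl, List.mem_cons] at ha
    rcases ha with rfl | ha
    · exact hv
    · exact hacc a ha
  | l T ih =>
    refine ih (vmul_lt _ _) ?_
    intro a ha
    rcases List.mem_cons.1 ha with rfl | ha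
    · exact hv
    · exact hacc a ha
  | r T ih =>
    refine ih (vmul_lt _ _) ?_
    intro a ha
    rcases List.mem_cons.1 ha with rfl | ha
    · exact hv
    · exact hacc a ha
  | b T U ih1 ih2 =>
    refine ih2 (vmul_lt _ _) (ih1 (vmul_lt _ _) ?_)
    intro a ha
    rcases List.mem_cons.1 ha with rfl | ha
    · exact hv
    · exact hacc a ha

theorem nodup_visit {a b : Cfsg.Spor.J4} {A B : ℕ} (ha : Codes 112 (rho a) A) (hb : Codes 112 (rho b) B)
    {w : ℕ} (hw : w < 2 ^ 112) {T : BT} (h : (vl A B T w []).Nodup) : (visit a b T 1).Nodup := by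
  have h0 : F2Mat.toVec 112 w = vv w 1 := by
    unfold vv
    rw [map_one, Units.val_one, Matrix.vecMul_one]
  have h1 := vl_eq ha hb (T := T) h0 []
  have h2 : ((vl A B T w []).map (F2Mat.toVec 112)).Nodup := by
    refine List.Nodup.map_on ?_ h
    intro x hx y hy hxy
    exact toVec_inj (vl_lt hw (by simp) x hx) (vl_lt hw (by simp) y hy) hxy
  rw [h1, List.map_nil, List.append_nil, List.nodup_reverse] at h2
  exact List.Nodup.of_map _ h2

/-- a listed subgroup -/
theorem mem_visit {G : Type*} [Group G] [Finite G] {H : Subgroup G} {L : List G} (hL : ∀ x ∈ L, x ∈ H)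
    (hnd : L.Nodup) (hc : Nat.card H ≤ L.length) : ∀ x ∈ H, x ∈ L := by
  classical
  intro x hx
  have h1 : (L.toFinset : Set G) ⊆ (H : Set G) := fun y hy => hL y (List.mem_toFinset.1 (Finset.mem_coe.1 hy))
  have h2 : (L.toFinset : Set G).ncard = L.length := by
    rw [Set.ncard_coe_finset, List.toFinset_card_of_nodup hnd]
  have h3 : (L.toFinset : Set G) = (H : Set G) := by
    refine Set.eq_of_subset_of_ncard_le h1 ?_ (Set.toFinite _)
    rw [h2]
    exact hc
  have h4 : x ∈ (L.toFinset : Set G) := h3 ▸ hx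
  exact List.mem_toFinset.1 (Finset.mem_coe.1 h4)

end Cfsg.Agent.H831.JM.Tree
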