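import Cfsg.Agent.H831.JM.TList

/-!
# Square roots of the involutions inverting `f` (helper831): the check
-/

set_option autoImplicit false
set_option Elab.async false

open Cfsg

namespace Cfsg.Agent.H831.JM.VCheck

open Cfsg.Agent.H831.JM.Split Cfsg.Agent.H831.JM.FmJ Cfsg.Agent.H831.JM.EnvData

/-- further program: `f⁻² uA f²`, `f⁻³ uB f³`, `f⁻¹ uB f`, `r² y₁`, `r² y₃`, `r² y₅` -/
def ws2 : List (List ℕ) := [
  [33, 33, 33, 18, 33, 33],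
  [34, 34, 22, 34, 34, 34],
  [35, 35, 35, 35, 23, 35],
  [20, 15],
  [21, 14],
  [22, 13]]

/-- no relation of length 7 or 8 -/
def n78 : Fm := .and (.ne [0, 0, 0, 0, 0, 0, 0] []) (.ne [0, 0, 0, 0, 0, 0, 0, 0] [])

/-- the formula -/
def fm2 : Fm := .bind [39, 0] (.bind [0, 0] (
  .and (.or (.ne [0] [26]) (.bind [8, 1] n78)) (
  .and (.or (.ne [0] [5]) (.or (.vec pB [1]) (.bind [7, 1] n78))) (
  .and (.or (.ne [0] [4]) (.or (.vec pB [1]) (.or (.eq [2] [10]) (.bind [7, 1] n78)))) (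
    .or (.ne [0] [3]) (.or (.vec pB [1]) (.bind [6, 1] n78)))))))

theorem check2_t : chkTop ws2 fm2 = true := by decide +kernel
theorem check2_a : chkSub ws2 fm2 [[false, false, false]] = true := by decide +kernel
theorem check2_b : chkSub ws2 fm2 [[false, false, true]] = true := by decide +kernel
theorem check2_c : chkSub ws2 fm2 [[false, true, false]] = true := by decide +kernel
theorem check2_d : chkSub ws2 fm2 [[false, true, true]] = true := by decide +kernel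
theorem check2_f : chkSub ws2 fm2 [[true, false, false]] = true := by decide +kernel
theorem check2_g : chkSub ws2 fm2 [[true, false, true]] = true := by decide +kernel
theorem check2_h : chkSub ws2 fm2 [[true, true, false], [true, true, true]] = true := by decide +kernel

theorem check2 : ∀ x ∈ Cfsg.Agent.H858.Loc5.J, Mean fm2 (x :: EY ws2) :=
  split_J check2_t check2_a check2_b check2_c check2_d check2_f check2_g check2_h

end Cfsg.Agent.H831.JM.VCheck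

/-!
# Square roots of the involutions inverting `f` (helper831)
-/


open Cfsg

namespace Cfsg.Agent.H831.JM.VList

open Cfsg.Agent.Lib Cfsg.Agent.Lib.F2Mat Cfsg.Agent.Lib.F2MatGroup
open Cfsg.Agent.J4.Rep112 Cfsg.Agent.J4.Pres
open Cfsg.Agent.H858 Cfsg.Agent.H858.VK Cfsg.Agent.H858.Data Cfsg.Agent.H858.Elem
open Cfsg.Agent.H831.JM.Tree Cfsg.Agent.H831.JM.EnvData Cfsg.Agent.H831.JM.Env Cfsg.Agent.H831.JM.JList
open Cfsg.Agent.H831.JM.Pair Cfsg.Agent.H831.JM.Point Cfsg.Agent.H831.JM.FmJ Cfsg.Agent.H831.JM.Cent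
open Cfsg.Agent.H831.JM.VCheck Cfsg.Agent.H831.JM.TList

local notation "𝒢" => Cfsg.Spor.J4

/-! ### Constants -/

theorem all_E {φ : Fm} (h : run 112 slpAll codes (evB φ) = true) : Mean φ LY := by
  obtain ⟨L', h', hk⟩ := codesY h
  exact sound_fm h' hk

/-- constants in `MB`, `r j r⁻¹ ∈ J`, and the elements `Y_i` of `J` -/
def fm0 : Fm := .and (.vec pB [33]) (.and (.vec pB [21]) (.and (.vec pB [6]) (.and (.vec pB [4]) (.and (.vec pB [2])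
  (.and (.eq [32, 30] [39, 30, 39, 30, 39, 30, 39, 30, 30, 32])
  (.and (.eq [12] [30, 39, 39, 30, 39, 30, 30]) (.and (.eq [10] [39, 39, 39, 39, 30, 39, 39, 39, 39, 30])
  (.and (.eq [8] [30, 39, 30, 39, 30, 30, 39, 39, 39, 30])
  (.and (.eq [21, 0, 21, 0, 21, 0, 21, 0, 21, 0, 21, 0, 21, 0] []) (.ne [21, 0] []))))))))))

theorem check0 : run 112 slpAll codes (evB fm0) = true := by decide +kernel

theorem const_all : f ∈ MB ∧ uB ∈ MB ∧ e 6 ∈ MB ∧ e 4 ∈ MB ∧ e 2 ∈ MB ∧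
    e 32 * e 30 = e 39 * (e 30 * (e 39 * (e 30 * (e 39 * (e 30 * (e 39 * (e 30 * (e 30 * e 32)))))))) ∧
    e 12 = e 30 * (e 39 * (e 39 * (e 30 * (e 39 * (e 30 * e 30))))) ∧
    e 10 = e 39 * (e 39 * (e 39 * (e 39 * (e 30 * (e 39 * (e 39 * (e 39 * (e 39 * e 30)))))))) ∧
    e 8 = e 30 * (e 39 * (e 30 * (e 39 * (e 30 * (e 30 * (e 39 * (e 39 * (e 39 * e 30)))))))) ∧
    uB * (e 0 * (uB * (e 0 * (uB * (e 0 * (uB * (e 0 * (uB * (e 0 * (uB * (e 0 * (uB * e 0)))))))))))) = 1 ∧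
    uB * e 0 ≠ 1 := by
  have h := all_E check0
  simp only [fm0, Mean, evG_cons, evG_nil, mul_one] at h
  rw [← e_f]
  exact h

theorem f_MB : f ∈ MB := const_all.1
theorem uB_MB : uB ∈ MB := const_all.2.1

/-! ### The group `J` is normalized by `r` -/

theorem r_s : r * s * r⁻¹ = s := by rw [r_mul_s, mul_inv_cancel_right]

theorem r_j : r * j * r⁻¹ ∈ Loc5.J := by
  have h := const_all.2.2.2.2.2.1
  rw [e_r, e_j, e_s] at h
  have e1 : r * j * r⁻¹ = s * (j * (s * (j * (s * (j * (s * (j * j))))))) := by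
    rw [h]; group
  rw [e1]
  have hs := Loc5.s_mem
  have hj := Loc5.j_mem
  exact mul_mem hs (mul_mem hj (mul_mem hs (mul_mem hj (mul_mem hs (mul_mem hj (mul_mem hs (mul_mem hj hj)))))))

theorem r_norm {y : 𝒢} (hy : y ∈ Loc5.J) : r⁻¹ * y * r ∈ Loc5.J := by
  have h1 : Loc5.J.map (MulAut.conj r).toMonoidHom ≤ Loc5.J := by
    conv_lhs => unfold Loc5.J
    rw [MonoidHom.map_closure, Subgroup.closure_le]
    rintro _ ⟨z, rfl | rfl, rfl⟩
    · show r * s * r⁻¹ ∈ Loc5.J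
      rw [r_s]; exact Loc5.s_mem
    · exact r_j
  have h2 : Loc5.J.map (MulAut.conj r).toMonoidHom = Loc5.J := by
    apply Subgroup.eq_of_le_of_card_ge h1
    rw [Subgroup.card_map_of_injective (MulAut.conj r).injective]
  have h3 : y ∈ Loc5.J.map (MulAut.conj r).toMonoidHom := by rw [h2]; exact hy
  obtain ⟨z, hz, h4⟩ := h3
  have h5 : r * z * r⁻¹ = y := h4
  have e1 : r⁻¹ * y * r = z := by rw [← h5]; group
  rw [e1]; exact hz

theorem r_f : r * f * r⁻¹ = f ^ 2 := by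
  rw [r_mul_f, mul_inv_cancel_right, pow_two]

theorem rinv_f : r⁻¹ * f * r = f ^ 3 := by
  have h1 : r * f ^ 3 * r⁻¹ = f := by
    rw [← conj_pow, r_f, ← pow_mul]
    have : f ^ (2 * 3) = f ^ 5 * f := by rw [← pow_succ]
    rw [this, f_pow, one_mul]
  calc r⁻¹ * f * r = r⁻¹ * (r * f ^ 3 * r⁻¹) * r := by rw [h1]
    _ = f ^ 3 := by group

theorem rinv_fpow (b : ℕ) : f ^ b * r = r * f ^ (3 * b) := by
  have h : r⁻¹ * f ^ b * r = (r⁻¹ * f * r) ^ b := by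
    have e1 : r⁻¹ * f * r = r⁻¹ * f * (r⁻¹)⁻¹ := by rw [inv_inv]
    rw [e1, conj_pow, inv_inv]
  rw [rinv_f, ← pow_mul] at h
  rw [← h]; group

/-- the square roots -/
theorem v_form {v Y : 𝒢} {a : ℕ} (hv : v * f * v⁻¹ = f ^ 2) (hY : Y ∈ Loc5.J)
    (hvv : v * v = f ^ a * (R * Y) * (f ^ a)⁻¹) :
    ∃ y ∈ Loc5.J, v = f ^ a * (r * y) * (f ^ a)⁻¹ ∧ r * y * (r * y) = R * Y := by
  set w := (f ^ a)⁻¹ * v * f ^ a with hw
  have hw2 : w * w = R * Y := by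
    have e1 : w * w = (f ^ a)⁻¹ * (v * v) * f ^ a := by rw [hw]; group
    rw [e1, hvv]; group
  have hwf : w * f * w⁻¹ = f ^ 2 := by
    have e1 : w * f * w⁻¹ = (f ^ a)⁻¹ * (v * f * v⁻¹) * f ^ a := by
      rw [hw]
      have e2 : f ^ a * f * (f ^ a)⁻¹ = f := by rw [← pow_succ, pow_succ']; group
      calc (f ^ a)⁻¹ * v * f ^ a * f * ((f ^ a)⁻¹ * v * f ^ a)⁻¹
          = (f ^ a)⁻¹ * v * (f ^ a * f * (f ^ a)⁻¹) * v⁻¹ * f ^ a := by group
        _ = (f ^ a)⁻¹ * (v * f * v⁻¹) * f ^ a := by rw [e2]; group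
    rw [e1, hv]
    have e3 : (f ^ a)⁻¹ * f ^ 2 * f ^ a = (f ^ a)⁻¹ * (f ^ 2 * f ^ a) := by group
    rw [e3, ← pow_add, add_comm, pow_add]; group
  have h1 : (r⁻¹ * w) * f = f * (r⁻¹ * w) := by
    have e1 : r⁻¹ * w * f = r⁻¹ * (w * f * w⁻¹) * w := by group
    have e2 : r⁻¹ * f ^ 2 = f * r⁻¹ := by
      rw [← r_f]; group
    rw [e1, hwf, e2, mul_assoc]
  obtain ⟨b, hb, y, hy, h2⟩ := cent_f h1
  have h3 : w = r * (f ^ b * y) := by rw [← h2]; group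
  have hy' := r_norm hy
  have h4 : w * w = R * (f ^ (4 * b) * (r⁻¹ * y * r * y)) := by
    have e1 : w * w = r * f ^ b * r * (r⁻¹ * y * r * f ^ b) * y := by rw [h3]; group
    rw [e1, J_fpow hy', mul_assoc r (f ^ b) r, rinv_fpow, R_eq]
    have e2 : f ^ (4 * b) = f ^ (3 * b) * f ^ b := by rw [← pow_add]; congr 1; ring
    rw [e2]; group
  rw [hw2] at h4
  have h5 : f ^ (4 * b) ∈ Loc5.J := by
    have h6 : Y = f ^ (4 * b) * (r⁻¹ * y * r * y) := mul_left_cancel h4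
    have h7 : f ^ (4 * b) = Y * (r⁻¹ * y * r * y)⁻¹ := by rw [h6, mul_inv_cancel_right]
    rw [h7]
    exact Subgroup.mul_mem _ hY (Subgroup.inv_mem _ (Subgroup.mul_mem _ hy' hy))
  have h6 := f_pow_eq_one h5
  have h7 : b = 0 := by omega
  subst h7
  rw [pow_zero, one_mul] at h3
  refine ⟨y, hy, ?_, by rw [← h3, hw2]⟩
  rw [← h3, hw]; group

/-! ### The list -/

theorem sh2 (y : 𝒢) (i : ℕ) : getG (y :: EY ws2) (7 + i) = e i := by
  have h : getG (y :: EY ws2) (7 + i) = getG (EY ws2) (ws2.length + i) := by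
    rw [show 7 + i = (ws2.length + i) + 1 by rw [show ws2.length = 6 from rfl]; omega]
    rfl
  rw [h, EY_shift]

theorem d1 (y : 𝒢) (L : List 𝒢) (i : ℕ) : getG (y :: L) (i + 1) = getG L i := rfl

theorem W5 : getG (EY ws2) 5 = (f ^ 2)⁻¹ * uA * f ^ 2 := by
  have h := EY_at' ws2 0 [33, 33, 33, 18, 33, 33] 5 (by decide) (by decide) (by decide)
  simp only [evG_cons, evG_nil, mul_one] at h
  rw [inv2, ← e_f]
  simpa only [pow_succ, pow_zero, one_mul, mul_assoc] using h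

theorem W4 : getG (EY ws2) 4 = (f ^ 3)⁻¹ * uB * f ^ 3 := by
  have h := EY_at' ws2 1 [33, 33, 21, 33, 33, 33] 4 (by decide) (by decide) (by decide)
  simp only [evG_cons, evG_nil, mul_one] at h
  rw [inv3, ← e_f]
  simpa only [pow_succ, pow_zero, one_mul, mul_assoc] using h

theorem W3 : getG (EY ws2) 3 = (f ^ 1)⁻¹ * uB * f ^ 1 := by
  have h := EY_at' ws2 2 [33, 33, 33, 33, 21, 33] 3 (by decide) (by decide) (by decide)
  simp only [evG_cons, evG_nil, mul_one] at h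
  rw [inv1, ← e_f]
  simpa only [pow_succ, pow_zero, one_mul, mul_assoc] using h

theorem W2 : getG (EY ws2) 2 = R * e 12 := by
  have h := EY_at' ws2 3 [17, 12] 2 (by decide) (by decide) (by decide)
  simpa only [evG_cons, evG_nil, mul_one] using h

theorem W1 : getG (EY ws2) 1 = R * e 10 := by
  have h := EY_at' ws2 4 [17, 10] 1 (by decide) (by decide) (by decide)
  simpa only [evG_cons, evG_nil, mul_one] using h

theorem W0 : getG (EY ws2) 0 = R * e 8 := by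
  have h := EY_at' ws2 5 [17, 8] 0 (by decide) (by decide) (by decide)
  simpa only [evG_cons, evG_nil, mul_one] using h

theorem p7 (a : 𝒢) : a * (a * (a * (a * (a * (a * a))))) = a ^ 7 := by
  simp only [pow_succ, pow_zero, one_mul, mul_assoc]

theorem p8 (a : 𝒢) : a * a ^ 7 = a ^ 8 := (pow_succ' a 7).symm

theorem E38 : getG (EY ws2) 38 = r := (EY_shift ws2 32).trans e_r
theorem E23 : getG (EY ws2) 23 = R := EY_shift ws2 17
theorem E7 : getG (EY ws2) 7 = e 1 := EY_shift ws2 1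

theorem list2 {y : 𝒢} (hy : y ∈ Loc5.J) :
    (¬ r * y * (r * y) = R ∨ ¬ ((f ^ 2)⁻¹ * uA * f ^ 2 * (r * y)) ^ 7 = 1 ∧
      ¬ ((f ^ 2)⁻¹ * uA * f ^ 2 * (r * y)) ^ 8 = 1) ∧
    (¬ r * y * (r * y) = R * e 12 ∨ r * y ∈ MB ∨ ¬ ((f ^ 3)⁻¹ * uB * f ^ 3 * (r * y)) ^ 7 = 1 ∧
      ¬ ((f ^ 3)⁻¹ * uB * f ^ 3 * (r * y)) ^ 8 = 1) ∧
    (¬ r * y * (r * y) = R * e 10 ∨ r * y ∈ MB ∨ y = e 1 ∨ ¬ ((f ^ 3)⁻¹ * uB * f ^ 3 * (r * y)) ^ 7 = 1 ∧
      ¬ ((f ^ 3)⁻¹ * uB * f ^ 3 * (r * y)) ^ 8 = 1) ∧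
    (¬ r * y * (r * y) = R * e 8 ∨ r * y ∈ MB ∨ ¬ ((f ^ 1)⁻¹ * uB * f ^ 1 * (r * y)) ^ 7 = 1 ∧
      ¬ ((f ^ 1)⁻¹ * uB * f ^ 1 * (r * y)) ^ 8 = 1) := by
  have h := check2 y hy
  simp only [fm2, n78, Mean, evG_cons, evG_nil, mul_one, ne_eq, d1, c0, p7, p8, E38, E23, E7] at h
  rw [W0, W1, W2, W3, W4, W5] at h
  exact h

/-! ### Conclusions -/

theorem Y1_mem : e 12 ∈ Loc5.J := by
  have h := const_all.2.2.2.2.2.2.1
  rw [e_j, e_s] at h
  rw [h]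
  have hs := Loc5.s_mem
  have hj := Loc5.j_mem
  exact mul_mem hj (mul_mem hs (mul_mem hs (mul_mem hj (mul_mem hs (mul_mem hj hj)))))

theorem Y3_mem : e 10 ∈ Loc5.J := by
  have h := const_all.2.2.2.2.2.2.2.1
  rw [e_j, e_s] at h
  rw [h]
  have hs := Loc5.s_mem
  have hj := Loc5.j_mem
  exact mul_mem hs (mul_mem hs (mul_mem hs (mul_mem hs (mul_mem hj (mul_mem hs (mul_mem hs (mul_mem hs (mul_mem hs hj))))))))

theorem Y5_mem : e 8 ∈ Loc5.J := by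
  have h := const_all.2.2.2.2.2.2.2.2.1
  rw [e_j, e_s] at h
  rw [h]
  have hs := Loc5.s_mem
  have hj := Loc5.j_mem
  exact mul_mem hj (mul_mem hs (mul_mem hj (mul_mem hs (mul_mem hj (mul_mem hj (mul_mem hs (mul_mem hs (mul_mem hs hj))))))))

theorem npow {U w : 𝒢} {a n : ℕ} (h : ¬ ((f ^ a)⁻¹ * U * f ^ a * w) ^ n = 1) :
    (U * (f ^ a * w * (f ^ a)⁻¹)) ^ n ≠ 1 := by
  intro h1
  apply h
  have e1 : (f ^ a)⁻¹ * U * f ^ a * w = (f ^ a)⁻¹ * (U * (f ^ a * w * (f ^ a)⁻¹)) * ((f ^ a)⁻¹)⁻¹ := by group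
  rw [e1, conj_pow, h1]
  group

theorem conj_MB {w : 𝒢} (a : ℕ) (h : w ∈ MB) : f ^ a * w * (f ^ a)⁻¹ ∈ MB :=
  Subgroup.mul_mem _ (Subgroup.mul_mem _ (Subgroup.pow_mem _ f_MB a) h) (Subgroup.inv_mem _ (Subgroup.pow_mem _ f_MB a))

theorem vA {v : 𝒢} (hv : v * f * v⁻¹ = f ^ 2) (h : v * v = e 7) : (uA * v) ^ 7 ≠ 1 ∧ (uA * v) ^ 8 ≠ 1 := by
  obtain ⟨y, hy, rfl, h2⟩ := v_form hv (Subgroup.one_mem _) (h.trans T0_eq)
  rcases (list2 hy).1 with h3 | h3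
  · exact absurd (by rw [h2, mul_one]) h3
  · exact ⟨npow h3.1, npow h3.2⟩

theorem v1 {v : 𝒢} (hv : v * f * v⁻¹ = f ^ 2) (h : v * v = e 6) : v ∈ MB ∨ ((uB * v) ^ 7 ≠ 1 ∧ (uB * v) ^ 8 ≠ 1) := by
  obtain ⟨y, hy, rfl, h2⟩ := v_form hv Y1_mem (h.trans T1_eq)
  rcases (list2 hy).2.1 with h3 | h3 | h3
  · exact absurd h2 h3
  · exact Or.inl (conj_MB 3 h3)
  · exact Or.inr ⟨npow h3.1, npow h3.2⟩

theorem VS_eq : e 0 = f ^ 3 * (r * e 1) * (f ^ 3)⁻¹ := by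
  have h := eqY (p := ([0], [33, 33, 33, 32, 1, 33, 33])) (by decide +kernel)
  simp only [evG_cons, evG_nil, mul_one] at h
  rw [inv3, ← e_f, ← e_r]
  simpa only [pow_succ, pow_zero, one_mul, mul_one, mul_assoc] using h

theorem v3 {v : 𝒢} (hv : v * f * v⁻¹ = f ^ 2) (h : v * v = e 4) :
    v ∈ MB ∨ v = e 0 ∨ ((uB * v) ^ 7 ≠ 1 ∧ (uB * v) ^ 8 ≠ 1) := by
  obtain ⟨y, hy, rfl, h2⟩ := v_form hv Y3_mem (h.trans T3_eq)
  rcases (list2 hy).2.2.1 with h3 | h3 | h3 | h3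
  · exact absurd h2 h3
  · exact Or.inl (conj_MB 3 h3)
  · right; left
    rw [h3, VS_eq]
  · exact Or.inr (Or.inr ⟨npow h3.1, npow h3.2⟩)

theorem v5 {v : 𝒢} (hv : v * f * v⁻¹ = f ^ 2) (h : v * v = e 2) : v ∈ MB ∨ ((uB * v) ^ 7 ≠ 1 ∧ (uB * v) ^ 8 ≠ 1) := by
  obtain ⟨y, hy, rfl, h2⟩ := v_form hv Y5_mem (h.trans T5_eq)
  rcases (list2 hy).2.2.2 with h3 | h3 | h3
  · exact absurd h2 h3
  · exact Or.inl (conj_MB 1 h3)
  · exact Or.inr ⟨npow h3.1, npow h3.2⟩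

theorem VS7 : (uB * e 0) ^ 7 = 1 := by
  have h := const_all.2.2.2.2.2.2.2.2.2.1
  simpa only [pow_succ, pow_zero, one_mul, mul_assoc] using h

theorem VS8 : (uB * e 0) ^ 8 ≠ 1 := by
  rw [pow_succ, VS7, one_mul]
  exact const_all.2.2.2.2.2.2.2.2.2.2

end Cfsg.Agent.H831.JM.VList
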