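import Cfsg.Agent.H831.JM.VList

/-!
# Elements of order 2 and 3 of `J` (helper831): the check
-/

set_option autoImplicit false
set_option Elab.async false

open Cfsg

namespace Cfsg.Agent.H831.JM.XCheck

open Cfsg.Agent.H831.JM.Split Cfsg.Agent.H831.JM.FmJ Cfsg.Agent.H831.JM.EnvData

/-- no relation of length 11 -/
def n11 : Fm := .ne [0, 0, 0, 0, 0, 0, 0, 0, 0, 0, 0] []

/-- the formula -/
def fm3 : Fm := .or (.eq [0] []) (.or (.and (.ne [0, 0] []) (.ne [0, 0, 0] []))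
  (.and (.bind [19, 0] n11) (.or (.vec pB [0]) (.or (.bind [22, 0] n11)
    (.and (.ne [0, 13] [13, 0]) (.and (.ne [0, 11] [11, 0]) (.ne [0, 9] [9, 0])))))))

theorem check3_t : chkTop [] fm3 = true := by decide +kernel
theorem check3_a : chkSub [] fm3 [[false, false, false]] = true := by decide +kernel
theorem check3_b : chkSub [] fm3 [[false, false, true]] = true := by decide +kernel
theorem check3_c : chkSub [] fm3 [[false, true, false]] = true := by decide +kernel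
theorem check3_d : chkSub [] fm3 [[false, true, true]] = true := by decide +kernel
theorem check3_f : chkSub [] fm3 [[true, false, false]] = true := by decide +kernel
theorem check3_g : chkSub [] fm3 [[true, false, true]] = true := by decide +kernel
theorem check3_h : chkSub [] fm3 [[true, true, false], [true, true, true]] = true := by decide +kernel

theorem check3 : ∀ x ∈ Cfsg.Agent.H858.Loc5.J, Mean fm3 (x :: EY []) :=
  split_J check3_t check3_a check3_b check3_c check3_d check3_f check3_g check3_h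

end Cfsg.Agent.H831.JM.XCheck

/-!
# Elements of order 2 or 3 commuting with `f` (helper831)
-/


open Cfsg

namespace Cfsg.Agent.H831.JM.XList

open Cfsg.Agent.Lib Cfsg.Agent.Lib.F2Mat Cfsg.Agent.Lib.F2MatGroup
open Cfsg.Agent.J4.Rep112
open Cfsg.Agent.H858 Cfsg.Agent.H858.VK Cfsg.Agent.H858.Data Cfsg.Agent.H858.Elem
open Cfsg.Agent.H831.JM.EnvData Cfsg.Agent.H831.JM.Env Cfsg.Agent.H831.JM.JList
open Cfsg.Agent.H831.JM.Pair Cfsg.Agent.H831.JM.Point Cfsg.Agent.H831.JM.FmJ Cfsg.Agent.H831.JM.Cent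
open Cfsg.Agent.H831.JM.XCheck Cfsg.Agent.H831.JM.TList Cfsg.Agent.H831.JM.VList

local notation "𝒢" => Cfsg.Spor.J4

theorem p11 (a : 𝒢) : a * (a * (a * (a * a ^ 7))) = a ^ 11 := by
  simp only [pow_succ, pow_zero, one_mul, mul_assoc]

theorem dd (y : 𝒢) (i : ℕ) : getG (y :: EY []) (i + 1) = e i := rfl

theorem listX {y : 𝒢} (hy : y ∈ Loc5.J) :
    y = 1 ∨ (¬ y * y = 1 ∧ ¬ y * (y * y) = 1) ∨
    ¬ (uA * y) ^ 11 = 1 ∧ (y ∈ MB ∨ ¬ (uB * y) ^ 11 = 1 ∨
      ¬ y * e 12 = e 12 * y ∧ ¬ y * e 10 = e 10 * y ∧ ¬ y * e 8 = e 8 * y) := by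
  have h := check3 y hy
  simp only [fm3, n11, Mean, evG_cons, evG_nil, mul_one, ne_eq, d1, c0, p7, p11] at h
  exact h

/-- `x` commutes with `f` and with `f^a R Y f^-a` implies `x` commutes with `Y` -/
theorem comm_Y {x Y : 𝒢} {a : ℕ} (hx : x ∈ Loc5.J)
    (h : x * (f ^ a * (R * Y) * (f ^ a)⁻¹) = f ^ a * (R * Y) * (f ^ a)⁻¹ * x) : x * Y = Y * x := by
  have h1 : x * f ^ a = f ^ a * x := J_fpow hx a
  have h2 : R * x = x * R := R_J hx
  have h3 : (f ^ a)⁻¹ * x = x * (f ^ a)⁻¹ := by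
    rw [inv_mul_eq_iff_eq_mul, ← mul_assoc, ← h1, mul_inv_cancel_right]
  have e1 : x * (f ^ a * (R * Y) * (f ^ a)⁻¹) = f ^ a * R * (x * Y) * (f ^ a)⁻¹ := by
    calc x * (f ^ a * (R * Y) * (f ^ a)⁻¹) = x * f ^ a * R * Y * (f ^ a)⁻¹ := by group
      _ = f ^ a * (x * R) * Y * (f ^ a)⁻¹ := by rw [h1]; group
      _ = f ^ a * R * (x * Y) * (f ^ a)⁻¹ := by rw [← h2]; group
  have e2 : f ^ a * (R * Y) * (f ^ a)⁻¹ * x = f ^ a * R * (Y * x) * (f ^ a)⁻¹ := by
    rw [mul_assoc _ (f ^ a)⁻¹ x, h3]; group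
  rw [e1, e2] at h
  exact mul_left_cancel (mul_right_cancel h)

/-- **elements of order 2 or 3 commuting with `f`** -/
theorem x_list {x : 𝒢} (hf : x * f = f * x) (h1 : x ≠ 1) (h23 : x ^ 2 = 1 ∨ x ^ 3 = 1) :
    (uA * x) ^ 11 ≠ 1 ∧ ((uB * x) ^ 11 = 1 → (x * e 6 = e 6 * x ∨ x * e 4 = e 4 * x ∨ x * e 2 = e 2 * x) →
      x ∈ MB) := by
  have hJ : x ∈ Loc5.J := by
    rcases h23 with h | h
    · exact mem_J hf h (by norm_num)
    · exact mem_J hf h (by norm_num)
  rcases listX hJ with h | h | ⟨hA, h⟩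
  · exact absurd h h1
  · exfalso
    rcases h23 with h2 | h2
    · exact h.1 (by rw [← h2, pow_two])
    · exact h.2 (by rw [← h2, pow_three])
  · refine ⟨hA, fun hB ht => ?_⟩
    rcases h with h | h | ⟨k1, k3, k5⟩
    · exact h
    · exact absurd hB h
    · exfalso
      rw [T1_eq, T3_eq, T5_eq] at ht
      rcases ht with ht | ht | ht
      · exact k1 (comm_Y hJ ht)
      · exact k3 (comm_Y hJ ht)
      · exact k5 (comm_Y hJ ht)

end Cfsg.Agent.H831.JM.XList
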